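import Cfsg.Agent.Chev.B2Cov.Levi
import Cfsg.Agent.Chev.CoxCheck

/-!
Conjugates in the big cell with prescribed torus coordinates, in type `B₂ = C₂`.
-/

set_option autoImplicit false

universe u

namespace Cfsg.Agent.Chev.B2Cov

open Cfsg.Lie
open Cfsg.Agent.Chev.G2Odd (RootHom exists_rootHom hu_conj sl2D coe_sl2D sl2W_eq)
open Cfsg.Agent.Chev.G2Cov (gMk coe_gMk gU gL gD gW coe_gU coe_gL coe_gD coe_gW gl2_ext gl2_det_ne NonScalar scalar_of_not
  detU coe_detU slPart exists_conj_corner trace_conj det_conj eq_LDU)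
open scoped Matrix MatrixGroups

variable {F : Type u} [Field F]

local notation "GL₂" => GL (Fin 2) F
local notation "SL₂" => Matrix.SpecialLinearGroup (Fin 2) F
local notation "GG" => GL chevB2.Idx F

/-- The unipotent radical belonging to a fundamental root. -/
def QP (F : Type u) [Field F] (i : ℕ) : Subgroup (GL chevB2.Idx F) := spanGroup chevB2 F (posExcept chevB2 i)

/-- Its opposite. -/
noncomputable def QN (F : Type u) [Field F] (i : ℕ) : Subgroup (GL chevB2.Idx F) :=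
  (QP F i).map (MulAut.conj (nInv F)).toMonoidHom

theorem QN_mem_iff {i : ℕ} {g : GG} : g ∈ QN F i ↔ (nInv F)⁻¹ * g * nInv F ∈ QP F i := by
  rw [QN, Subgroup.mem_map_equiv, MulAut.conj_symm_apply]

theorem QP_le (i : ℕ) : QP F i ≤ chevB2.posUnipotent F :=
  Cert.span_mono cB fun _ h => h.1

theorem xu_conj_nInv {r : ℕ} (hr : r < 8) (t : F) :
    ∃ t', (nInv F)⁻¹ * cB.xu r t * nInv F = cB.xu (chevB2.neg r) t' := by
  obtain ⟨c, hall⟩ := nInv_maps (F := F)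
  obtain ⟨-, -, hc, e⟩ := hall _ (cB.{u}.neg_lt r hr)
  rw [cB.{u}.neg_neg r hr] at hc e
  have := e (c r * t)
  rw [← mul_assoc, hc, one_mul] at this
  exact ⟨c r * t, by rw [← this]; group⟩

theorem QN_le (i : ℕ) : QN F i ≤ chevB2.negUnipotent F := by
  rw [QN, Subgroup.map_le_iff_le_comap]
  refine Cert.span_le cB fun r hr t => ?_
  obtain ⟨c, hall⟩ := nInv_maps (F := F)
  obtain ⟨-, -, -, e⟩ := hall r hr.1.1
  show MulAut.conj (nInv F) (cB.xu r t) ∈ chevB2.negUnipotent F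
  rw [MulAut.conj_apply, e]
  exact Cert.xu_mem_neg cB (Cert.negRoot_neg cB.{u} hr.1) _

theorem xu_mem_QN {i r : ℕ} (h : posExcept chevB2 i (chevB2.neg r)) (hr : r < 8) (t : F) :
    cB.xu r t ∈ QN F i := by
  obtain ⟨t', e⟩ := xu_conj_nInv hr t
  rw [QN_mem_iff, e]
  exact Cert.xu_mem_span cB h _

theorem QP_le_group (i : ℕ) : QP F i ≤ chevB2.group F := Cert.span_le_group cB _

theorem QN_le_group (i : ℕ) : QN F i ≤ chevB2.group F := by
  intro x hx
  have h := QP_le_group i (QN_mem_iff.mp hx)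
  have := mul_mem (mul_mem nInv_mem h) (inv_mem (nInv_mem (F := F)))
  simpa [mul_assoc] using this

/-- The torus inverting element maps the negative radical back. -/
theorem conj_QN {i : ℕ} {e : GG} (he : e ∈ QN F i) : nInv F * e * (nInv F)⁻¹ ∈ QP F i := by
  have h : MapsRoot (nInv F * nInv F) (chevB2.neg ∘ chevB2.neg) :=
    (nInv_maps (F := F)).comp nInv_maps
  obtain ⟨c, hc⟩ := h
  have hle : QP F i ≤ (QP F i).comap (MulAut.conj (nInv F * nInv F)).toMonoidHom := by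
    refine Cert.span_le cB fun r hr t => ?_
    obtain ⟨-, -, -, e⟩ := hc r hr.1.1
    show MulAut.conj (nInv F * nInv F) (cB.xu r t) ∈ QP F i
    rw [MulAut.conj_apply, e, Function.comp_apply, cB.{u}.neg_neg r hr.1.1]
    exact Cert.xu_mem_span cB hr _
  obtain ⟨z, hz, rfl⟩ := Subgroup.mem_map.mp he
  have := hle hz
  simp only [Subgroup.mem_comap, MulEquiv.coe_toMonoidHom, MulAut.conj_apply] at this ⊢
  simpa [mul_assoc] using this

theorem diag_norm_QP (i : ℕ) : chevB2.diagonalSubgroup F ≤ Subgroup.normalizer (QP F i : Set GG) :=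
  Cert.diag_normalises cB _ fun _ h => h.1.1

theorem norm_QN_of {i : ℕ} {x : GG} (h : (nInv F)⁻¹ * x * nInv F ∈ Subgroup.normalizer (QP F i : Set GG)) :
    x ∈ Subgroup.normalizer (QN F i : Set GG) := by
  rw [Subgroup.mem_normalizer_iff]
  intro z
  rw [QN_mem_iff, QN_mem_iff,
    show (nInv F)⁻¹ * (x * z * x⁻¹) * nInv F = ((nInv F)⁻¹ * x * nInv F) * ((nInv F)⁻¹ * z * nInv F) *
      ((nInv F)⁻¹ * x * nInv F)⁻¹ by group]
  exact Subgroup.mem_normalizer_iff.mp h _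

theorem diag_norm_QN (i : ℕ) : chevB2.diagonalSubgroup F ≤ Subgroup.normalizer (QN F i : Set GG) :=
  fun _ hh => norm_QN_of (diag_norm_QP i (nInv_diag hh))

/-- The decomposition of a special linear matrix in the big cell. -/
theorem sl2_LDU (g : SL₂) (h : g 0 0 ≠ 0) :
    g = sl2L (g 1 0 / g 0 0) * sl2D (g 0 0) h * sl2U (g 0 1 / g 0 0) := by
  have := sl2_det g
  apply Subtype.ext
  simp only [Matrix.SpecialLinearGroup.coe_mul]
  ext i j
  fin_cases i <;> fin_cases j <;>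
    simp [Matrix.mul_apply, Fin.sum_univ_two, sl2U, sl2L] <;> field_simp
  linear_combination this

/-- The data of a fundamental root. -/
structure Fund (i r : ℕ) (φ : SL₂ →* GG) : Prop where
  lt : i < 2
  root : chevB2.simple i = r
  hphi : RootHom cB r φ

theorem fundS : Fund 0 5 (phi5 (F := F)) := ⟨by norm_num, simple0, h5⟩

theorem fundK : Fund 1 4 (phi4 (F := F)) := ⟨by norm_num, simple1, h4⟩

namespace Fund

variable {i r : ℕ} {φ : Matrix.SpecialLinearGroup (Fin 2) F →* GL chevB2.Idx F} (hL : Fund i r φ)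
include hL

theorem phi_mem (g : SL₂) :
    φ g ∈ chevB2.rootSubgroup F (chevB2.simple i) ⊔ chevB2.rootSubgroup F (chevB2.neg (chevB2.simple i)) := by
  rw [hL.root, ← Cert.sl2Hom_range cB φ hL.hphi.U hL.hphi.L]
  exact ⟨g, rfl⟩

theorem norm_QP (g : SL₂) : φ g ∈ Subgroup.normalizer (QP F i : Set GG) :=
  Cert.rootPair_normalises cB hL.lt (hL.phi_mem g)

theorem pair_norm_QN : chevB2.rootSubgroup F (chevB2.simple i) ⊔ chevB2.rootSubgroup F (chevB2.neg (chevB2.simple i))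
    ≤ Subgroup.normalizer (QN F i : Set GG) := by
  have hs : chevB2.simple i < 8 := cB.{u}.simple_lt i hL.lt
  refine sup_le ?_ ?_ <;> intro x hx <;> obtain ⟨t, rfl⟩ := (Cert.mem_rootSubgroup cB).mp hx <;>
    apply norm_QN_of
  · obtain ⟨t', e⟩ := xu_conj_nInv hs t
    rw [e]
    exact Cert.rootPair_normalises cB hL.lt (Subgroup.mem_sup_right ((Cert.mem_rootSubgroup cB).mpr ⟨t', rfl⟩))
  · obtain ⟨t', e⟩ := xu_conj_nInv (cB.{u}.neg_lt _ hs) t
    rw [e, cB.{u}.neg_neg _ hs]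
    exact Cert.rootPair_normalises cB hL.lt (Subgroup.mem_sup_left ((Cert.mem_rootSubgroup cB).mpr ⟨t', rfl⟩))

theorem norm_QN (g : SL₂) : φ g ∈ Subgroup.normalizer (QN F i : Set GG) := hL.pair_norm_QN (hL.phi_mem g)

theorem exists_pos {u : GG} (hu : u ∈ chevB2.posUnipotent F) :
    ∃ β : F, ∃ e ∈ QP F i, u = cB.xu r β * e := by
  obtain ⟨a, ha, t, e⟩ := Cert.exists_except_mul cB hL.lt hu
  refine ⟨t, (cB.xu r t)⁻¹ * a * cB.xu r t, ?_, by rw [e, hL.root]; group⟩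
  have h := hL.norm_QP (sl2U t)
  rw [hL.hphi.U] at h
  exact (Subgroup.mem_normalizer_iff''.mp h a).mp ha

theorem exists_neg {v : GG} (hv : v ∈ chevB2.negUnipotent F) :
    ∃ e ∈ QN F i, ∃ α : F, v = e * cB.xu (chevB2.neg r) α := by
  have hle : chevB2.negUnipotent F ≤ QN F i ⊔ chevB2.rootSubgroup F (chevB2.neg (chevB2.simple i)) := by
    show spanGroup chevB2 F chevB2.IsNegRoot ≤ _
    refine Cert.span_le cB fun r hr t => ?_
    by_cases h : r = chevB2.neg (chevB2.simple i)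
    · exact Subgroup.mem_sup_right ((Cert.mem_rootSubgroup cB).mpr ⟨t, by rw [h]⟩)
    · refine Subgroup.mem_sup_left (xu_mem_QN ⟨Cert.posRoot_neg cB.{u} hr, fun e => h ?_⟩ hr.1 t)
      rw [← e, cB.{u}.neg_neg r hr.1]
  obtain ⟨e, he, x, hx, rfl⟩ :=
    (Cert.mem_sup_of_normalised (le_sup_right.trans hL.pair_norm_QN)).mp (hle hv)
  obtain ⟨α, rfl⟩ := (Cert.mem_rootSubgroup cB).mp hx
  exact ⟨e, he, α, by rw [hL.root]⟩

theorem xu_neg_mem (α : F) : cB.xu (chevB2.neg r) α ∈ chevB2.negUnipotent F := by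
  rw [← hL.root]
  exact Cert.xu_mem_neg cB (Cert.negRoot_neg cB.{u} (Cert.pos_simple cB.{u} hL.lt)) _

theorem xu_pos_mem (α : F) : cB.xu r α ∈ chevB2.posUnipotent F := by
  rw [← hL.root]
  exact Cert.xu_mem_pos cB (Cert.pos_simple cB.{u} hL.lt) _

end Fund

/-- The big cell. -/
def BigCell (g : GG) : Prop :=
  ∃ v ∈ chevB2.negUnipotent F, ∃ h ∈ chevB2.diagonalSubgroup F, ∃ u ∈ chevB2.posUnipotent F, g = v * h * u

theorem BigCell.mul_borel {g b : GG} (hg : BigCell g) (hb : b ∈ chevB2.borelSubgroup F) : BigCell (g * b) := by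
  obtain ⟨v, hv, h, hh, u, hu, rfl⟩ := hg
  obtain ⟨a, ha, d, hd, rfl⟩ := (Cert.mem_borel cB).mp hb
  exact ⟨v, hv, h * d, mul_mem hh hd, d⁻¹ * (u * a) * d,
    (Subgroup.mem_normalizer_iff''.mp (Cert.posUnipotent_normalised cB hd) _).mp (mul_mem hu ha), by group⟩

theorem exists_cell_monomial {n : GG} (hn : n ∈ chevB2.monomialSubgroup F) :
    ∃ u ∈ chevB2.posUnipotent F, BigCell (u * n) := by
  generalize hk : invCount chevB2 F n = k
  induction k generalizing n with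
  | zero =>
    exact ⟨1, one_mem _, 1, one_mem _, n, Cert.mem_diagonal_of_invCount_zero cB coxB2 hn hk, 1, one_mem _,
      by group⟩
  | succ k ih =>
    have hH : n ∉ chevB2.diagonalSubgroup F := fun h => by
      rw [Cert.invCount_diagonal cB h] at hk; omega
    obtain ⟨i, hi, hinv⟩ := Cert.exists_descent cB coxB2 hn hH
    have hi2 : i < 2 := hi
    set s := cB.nu (chevB2.simple i) (1 : F) with hs
    have hn' : n * s⁻¹ ∈ chevB2.monomialSubgroup F := mul_mem hn (inv_mem (Cert.nu_mem_monomial cB hi))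
    obtain ⟨u, hu, hcell⟩ := ih hn' (by
      have := Cert.invCount_descend cB coxB2 hi (Cert.isRefl_nu_inv cB hi) hn hinv
      rw [← hs] at this
      omega)
    obtain ⟨r, φ, hL⟩ : ∃ r : ℕ, ∃ φ : SL₂ →* GG, Fund i r φ := by
      interval_cases i
      exacts [⟨_, _, fundS⟩, ⟨_, _, fundK⟩]
    have hnot : ¬ Inverts chevB2 F (n * s⁻¹) (chevB2.simple i) := fun h =>
      (Cert.inverts_mul_refl_simple cB coxB2 hi (Cert.isRefl_nu_inv cB hi) hn).mp h hinv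
    have hpos : ∀ t : F, (n * s⁻¹) * cB.xu (chevB2.simple i) t * (n * s⁻¹)⁻¹ ∈ chevB2.posUnipotent F := by
      obtain ⟨W, -, hW⟩ := Cert.monomial_conj_xu cB coxB2 hn'
      obtain ⟨c, hc, e⟩ := hW _ (cB.{u}.simple_lt i hi)
      intro t
      have hlt := Cert.act_lt cB.{u} (Cert.fin_word_lt cB.{u} W) (cB.{u}.simple_lt i hi)
      rcases Cert.posRoot_or_negRoot cB.{u} hlt with h | h
      · rw [e]; exact Cert.xu_mem_pos cB h _
      · exfalso
        refine hnot ⟨Cert.pos_simple cB.{u} hi, ?_⟩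
        rw [Cert.map_rootSubgroup cB ⟨c, hc, e⟩]
        exact Cert.rootSubgroup_le_neg cB h
    obtain ⟨v, hv, h, hh, w, hw, e⟩ := hcell
    obtain ⟨β, e2, he2, rfl⟩ := hL.exists_pos hw
    obtain ⟨z, c, hc, e2', he2', eq⟩ : ∃ z c : F, c ≠ 0 ∧ ∃ e' ∈ QP F i,
        cB.xu r β * e2 * cB.xu r z = cB.xu r c * e' := by
      classical
      refine ⟨if β = 0 then 1 else 0, β + if β = 0 then 1 else 0, ?_,
        (cB.xu r (if β = 0 then (1 : F) else 0))⁻¹ * e2 * cB.xu r (if β = 0 then (1 : F) else 0), ?_, ?_⟩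
      · split_ifs with hb <;> simp [hb]
      · exact (Subgroup.mem_normalizer_iff''.mp
          (by have := hL.norm_QP (sl2U (if β = 0 then (1 : F) else 0)); rwa [hL.hphi.U] at this) e2).mp he2
      · rw [← Cert.xu_add]; group
    refine ⟨u * ((n * s⁻¹) * cB.xu r z * (n * s⁻¹)⁻¹), mul_mem hu (hL.root ▸ hpos z), ?_⟩
    have hsW : s = φ sl2W := by rw [hL.hphi.map_W, hs, hL.root]
    have hA : (sl2U c * sl2W : SL₂) 0 0 ≠ 0 := by
      rw [sl2_mul_apply]; simpa [sl2U, sl2W] using hc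
    have key : u * (n * s⁻¹ * cB.xu r z * (n * s⁻¹)⁻¹) * n = v * h * (φ (sl2U c * sl2W)) * (s⁻¹ * e2' * s) := by
      rw [map_mul, hL.hphi.U, ← hsW]
      have : u * (n * s⁻¹ * cB.xu r z * (n * s⁻¹)⁻¹) * n = u * (n * s⁻¹) * cB.xu r z * s := by group
      rw [this, e, mul_assoc (v * h), eq]; group
    rw [key]
    refine BigCell.mul_borel ?_ (Cert.pos_le_borel cB (QP_le i
      ((Subgroup.mem_normalizer_iff''.mp (hsW ▸ hL.norm_QP sl2W) e2').mp he2')))
    rw [sl2_LDU _ hA, map_mul, map_mul, hL.hphi.L, hL.hphi.U, hL.hphi.map_D]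
    set α := (sl2U c * sl2W : SL₂) 1 0 / (sl2U c * sl2W : SL₂) 0 0
    refine ⟨v * (h * cB.xu (chevB2.neg r) α * h⁻¹), mul_mem hv
      ((Subgroup.mem_normalizer_iff.mp (Cert.negUnipotent_normalised cB hh) _).mp (hL.xu_neg_mem _)),
      h * cB.hu r ((sl2U c * sl2W : SL₂) 0 0), mul_mem hh (hL.root ▸ Cert.hu_simple_mem_diagonal cB (hL.root ▸ cB.{u}.simple_lt i hi) hA),
      cB.xu r ((sl2U c * sl2W : SL₂) 0 1 / (sl2U c * sl2W : SL₂) 0 0), hL.xu_pos_mem _, by group⟩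

/-- Every element has a conjugate in the big cell. -/
theorem exists_conj_cell {g : GG} (hg : g ∈ chevB2.group F) :
    ∃ y ∈ chevB2.group F, BigCell (y * g * y⁻¹) := by
  obtain ⟨n, hn, b₁, hb₁, b₂, hb₂, rfl⟩ := Cert.exists_bruhat cB coxB2 hg
  obtain ⟨u, hu, hc⟩ := exists_cell_monomial hn
  refine ⟨u * b₁⁻¹, mul_mem (Cert.borel_le_group cB (Cert.pos_le_borel cB hu))
    (inv_mem (Cert.borel_le_group cB hb₁)), ?_⟩
  rw [show u * b₁⁻¹ * (b₁ * n * b₂) * (u * b₁⁻¹)⁻¹ = u * n * (b₂ * b₁ * u⁻¹) by group]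
  exact hc.mul_borel (mul_mem (mul_mem hb₂ hb₁) (inv_mem (Cert.pos_le_borel cB hu)))

theorem Psi_norm_QP (A : GL₂) : Psi A ∈ Subgroup.normalizer (QP F 0 : Set GG) := by
  rw [Psi, LeviData.hom_apply]
  exact mul_mem (diag_norm_QP 0 (Cert.hu_simple_mem_diagonal cB (lt_of 4) (Units.ne_zero _))) (fundS.norm_QP _)

theorem Psi_norm_QN (A : GL₂) : Psi A ∈ Subgroup.normalizer (QN F 0 : Set GG) := by
  rw [Psi, LeviData.hom_apply]
  exact mul_mem (diag_norm_QN 0 (Cert.hu_simple_mem_diagonal cB (lt_of 4) (Units.ne_zero _))) (fundS.norm_QN _)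

/-- `g` lies in `Q⁻ L(A) Q` for the Siegel parabolic. -/
def Rep (A : GL₂) (g : GG) : Prop := ∃ e₁ ∈ QN F 0, ∃ e₂ ∈ QP F 0, g = e₁ * Psi A * e₂

theorem Rep.conj {A : GL₂} {g : GG} (h : Rep A g) (Y : GL₂) :
    Rep (Y * A * Y⁻¹) (Psi Y * g * (Psi Y)⁻¹) := by
  obtain ⟨e₁, h1, e₂, h2, rfl⟩ := h
  exact ⟨_, (Subgroup.mem_normalizer_iff.mp (Psi_norm_QN Y) e₁).mp h1, _,
    (Subgroup.mem_normalizer_iff.mp (Psi_norm_QP Y) e₂).mp h2, by rw [map_mul, map_mul, map_inv]; group⟩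

theorem tor2_as_Psi {x y : F} (hx : x ≠ 0) (hy : y ≠ 0) :
    tor2 x y = Psi (gD x (y / x) hx (div_ne_zero hy hx)) := by
  rw [Psi_gD, mul_div_cancel₀ y hx]

theorem Rep.of_cell {x y : F} (hx : x ≠ 0) (hy : y ≠ 0) {v u : GG}
    (hv : v ∈ chevB2.negUnipotent F) (hu : u ∈ chevB2.posUnipotent F) :
    ∃ α β : F, Rep (gL α * gD x (y / x) hx (div_ne_zero hy hx) * gU β) (v * tor2 x y * u) := by
  obtain ⟨e₁, h1, α, rfl⟩ := fundS.exists_neg hv
  obtain ⟨β, e₂, h2, rfl⟩ := fundS.exists_pos hu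
  refine ⟨α, β, e₁, h1, e₂, h2, ?_⟩
  rw [map_mul, map_mul, Psi_gL, Psi_gU, ← tor2_as_Psi hx hy, show chevB2.neg 5 = 2 by decide +kernel]
  group

theorem LDU_det (α β a b : F) (ha : a ≠ 0) (hb : b ≠ 0) :
    (gL α * gD a b ha hb * gU β).val.det = a * b := by
  rw [Units.val_mul, Units.val_mul, Matrix.det_mul, Matrix.det_mul]
  simp [Matrix.det_fin_two_of]

theorem LDU_scalar {α β a b : F} {ha : a ≠ 0} {hb : b ≠ 0}
    (h : ¬ NonScalar (gL α * gD a b ha hb * gU β)) : α = 0 ∧ β = 0 ∧ a = b := by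
  obtain ⟨h1, h2, h3⟩ := scalar_of_not h
  simp [Matrix.mul_apply, Matrix.vecMul, dotProduct, Fin.sum_univ_two] at h1 h2 h3
  have hβ : β = 0 := h1.resolve_left ha
  have hα : α = 0 := h2.resolve_right ha
  exact ⟨hα, hβ, by simpa [hα, hβ] using h3⟩

theorem Rep.cell {A : GL₂} {g : GG} (h : Rep A g) (h0 : A.val 0 0 ≠ 0) :
    ∃ v ∈ chevB2.negUnipotent F, ∃ u ∈ chevB2.posUnipotent F,
      g = v * tor2 (A.val 0 0) A.val.det * u := by
  obtain ⟨e₁, h1, e₂, h2, rfl⟩ := h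
  refine ⟨e₁ * cB.xu 2 (A.val 1 0 / A.val 0 0), mul_mem (QN_le 0 h1) ?_,
    cB.xu 5 (A.val 0 1 / A.val 0 0) * e₂, mul_mem (fundS.xu_pos_mem _) (QP_le 0 h2), ?_⟩
  · simpa [show chevB2.neg 5 = 2 by decide +kernel] using fundS.xu_neg_mem (A.val 1 0 / A.val 0 0)
  · conv_lhs => rw [eq_LDU A h0]
    rw [map_mul, map_mul, Psi_gL, Psi_gU, Psi_gD, mul_div_cancel₀ _ h0, Matrix.det_fin_two]
    simp only [mul_assoc]

/-- Conjugating along the Siegel Levi subgroup changes the first torus coordinate at will. -/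
theorem siegel_step {x y : F} (hx : x ≠ 0) (hy : y ≠ 0) {v u : GG} {α β : F}
    (hr : Rep (gL α * gD x (y / x) hx (div_ne_zero hy hx) * gU β) (v * tor2 x y * u))
    (hns : NonScalar (gL α * gD x (y / x) hx (div_ne_zero hy hx) * gU β)) {x' : F} (hx' : x' ≠ 0) :
    ∃ Y ∈ chevB2.group F, ∃ v' ∈ chevB2.negUnipotent F, ∃ u' ∈ chevB2.posUnipotent F,
      Y * (v * tor2 x y * u) * Y⁻¹ = v' * tor2 x' y * u' := by
  obtain ⟨Y, hY⟩ := exists_conj_corner _ hns x'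
  obtain ⟨v', hv', u', hu', e⟩ := (hr.conj Y).cell (by rw [hY]; exact hx')
  refine ⟨Psi Y, Psi_mem Y, v', hv', u', hu', ?_⟩
  rw [e, hY, det_conj, LDU_det, mul_div_cancel₀ _ hx]

/-- An element of `SL₂` with prescribed corner after conjugation. -/
theorem exists_sl2_corner (M : SL₂) (hns : M 0 1 ≠ 0 ∨ M 1 0 ≠ 0 ∨ M 0 0 ≠ M 1 1) (z : F) :
    ∃ Y : SL₂, (Y * M * Y⁻¹) 0 0 = z := by
  set g : GL₂ := gMk (M 0 0) (M 0 1) (M 1 0) (M 1 1) (by rw [sl2_det M]; exact one_ne_zero)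
  obtain ⟨Y, hY⟩ := exists_conj_corner g hns z
  have hD : (detU Y : F) ≠ 0 := Units.ne_zero _
  have hD' := coe_detU Y
  obtain ⟨Y', e⟩ : ∃ Y' : SL₂, (Y' : Matrix (Fin 2) (Fin 2) F) =
      !![(detU Y : F)⁻¹ * Y.val 0 0, (detU Y : F)⁻¹ * Y.val 0 1; Y.val 1 0, Y.val 1 1] := by
    refine ⟨⟨_, ?_⟩, rfl⟩
    rw [Matrix.det_fin_two_of]
    field_simp
    linear_combination -hD'
  refine ⟨Y', ?_⟩
  rw [← hY, Matrix.SpecialLinearGroup.coe_mul, Matrix.SpecialLinearGroup.coe_mul,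
    Matrix.SpecialLinearGroup.coe_inv, e]
  simp only [Units.val_mul, Matrix.coe_units_inv]
  simp [Matrix.adjugate_fin_two, Matrix.inv_def, Matrix.mul_apply, Matrix.vecMul, dotProduct, Fin.sum_univ_two, g, Matrix.det_fin_two, ← hD']
  field_simp

theorem pair_tor_diag (x : F) (hx : x ≠ 0) {r : ℕ} (hr : r = 4 ∨ r = 3) (t : F) :
    tor2 x x * cB.xu r t * (tor2 x x)⁻¹ = cB.xu r t := by
  rcases hr with rfl | rfl
  · rw [tor2_conj hx hx (lt_of 4), ← zpow_add₀ hx, show pairInt chevB2 5 4 + pairInt chevB2 4 4 = 0 by decide +kernel,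
      zpow_zero, one_mul]
  · rw [tor2_conj hx hx (lt_of 3), ← zpow_add₀ hx, show pairInt chevB2 5 3 + pairInt chevB2 4 3 = 0 by decide +kernel,
      zpow_zero, one_mul]

theorem tor_comm_phi4 (x : F) (hx : x ≠ 0) (M : SL₂) : Commute (tor2 x x) (phi4 M) := by
  have hle : chevB2.rootSubgroup F 4 ⊔ chevB2.rootSubgroup F (chevB2.neg 4) ≤
      Subgroup.centralizer {tor2 x x} := by
    refine sup_le ?_ ?_ <;> intro g hg <;> obtain ⟨t, rfl⟩ := (Cert.mem_rootSubgroup cB).mp hg <;>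
      rw [Subgroup.mem_centralizer_singleton_iff]
    · exact (mul_inv_eq_iff_eq_mul.mp (pair_tor_diag x hx (Or.inl rfl) t)).symm
    · exact (mul_inv_eq_iff_eq_mul.mp (pair_tor_diag x hx
        (Or.inr (show chevB2.neg 4 = 3 by decide +kernel)) t)).symm
  have h := fundK.phi_mem M
  rw [simple1] at h
  exact (Subgroup.mem_centralizer_singleton_iff.mp (hle h)).symm

theorem tor2_split {x y : F} (hx : x ≠ 0) (hy : y ≠ 0) : tor2 x y = tor2 x x * cB.hu 4 (y / x) := by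
  rw [tor2, tor2, mul_assoc, Cert.hu_mul cB (lt_of 4) hx (div_ne_zero hy hx), mul_div_cancel₀ y hx]

/-- Conjugating along the other Levi subgroup changes the determinant at will. -/
theorem klingen_step {x y : F} (hx : x ≠ 0) (hy : y ≠ 0) {e₁ e₂ : GG} (h1 : e₁ ∈ QN F 1) (h2 : e₂ ∈ QP F 1)
    {γ δ : F} (hns : γ ≠ 0 ∨ δ ≠ 0 ∨ (y / x) * (y / x) ≠ 1) {y' : F} (hy' : y' ≠ 0) :
    ∃ Y ∈ chevB2.group F, ∃ v' ∈ chevB2.negUnipotent F, ∃ u' ∈ chevB2.posUnipotent F,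
      Y * (e₁ * cB.xu 3 γ * tor2 x y * cB.xu 4 δ * e₂) * Y⁻¹ = v' * tor2 x y' * u' := by
  have hz : y / x ≠ 0 := div_ne_zero hy hx
  have h43 : chevB2.neg 4 = 3 := by decide +kernel
  set M : SL₂ := sl2L γ * sl2D (y / x) hz * sl2U δ
  have hMv : (M : Matrix (Fin 2) (Fin 2) F) =
      !![y / x, y / x * δ; γ * (y / x), γ * (y / x) * δ + (y / x)⁻¹] := by
    simp only [M, Matrix.SpecialLinearGroup.coe_mul]
    ext i j
    fin_cases i <;> fin_cases j <;> simp [Matrix.mul_apply, Fin.sum_univ_two, sl2L, sl2U]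
  have hM : M 0 1 ≠ 0 ∨ M 1 0 ≠ 0 ∨ M 0 0 ≠ M 1 1 := by
    by_contra hc
    push Not at hc
    obtain ⟨c1, c2, c3⟩ := hc
    rw [hMv] at c1 c2 c3
    simp [hx, hy] at c1 c2 c3
    subst c1 c2
    rcases hns with h | h | h
    · exact h rfl
    · exact h rfl
    · apply h
      simp at c3
      rw [← inv_mul_cancel₀ hz]
      nth_rewrite 1 [c3]
      simp
  obtain ⟨Y, hY⟩ := exists_sl2_corner M hM (y' / x)
  have hY0 : (Y * M * Y⁻¹) 0 0 ≠ 0 := by rw [hY]; exact div_ne_zero hy' hx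
  set P := Y * M * Y⁻¹ with hP
  refine ⟨phi4 Y, h4.mem_group Y, phi4 Y * e₁ * (phi4 Y)⁻¹ * cB.xu 3 (P 1 0 / P 0 0), ?_,
    cB.xu 4 (P 0 1 / P 0 0) * (phi4 Y * e₂ * (phi4 Y)⁻¹), ?_, ?_⟩
  · exact mul_mem (QN_le 1 ((Subgroup.mem_normalizer_iff.mp (fundK.norm_QN Y) _).mp h1))
      (h43 ▸ fundK.xu_neg_mem _)
  · exact mul_mem (fundK.xu_pos_mem _)
      (QP_le 1 ((Subgroup.mem_normalizer_iff.mp (fundK.norm_QP Y) _).mp h2))
  · have hc3 : cB.xu 3 γ * tor2 x x = tor2 x x * cB.xu 3 γ :=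
      (mul_inv_eq_iff_eq_mul.mp (pair_tor_diag x hx (Or.inr rfl) γ)).symm
    have hc3' : cB.xu 3 (P 1 0 / P 0 0) * tor2 x x = tor2 x x * cB.xu 3 (P 1 0 / P 0 0) :=
      (mul_inv_eq_iff_eq_mul.mp (pair_tor_diag x hx (Or.inr rfl) _)).symm
    have hphiM : phi4 M = cB.xu 3 γ * cB.hu 4 (y / x) * cB.xu 4 δ := by
      rw [map_mul, map_mul, h4.L, h4.U, h4.map_D, h43]
    have hphiP : phi4 P = cB.xu 3 (P 1 0 / P 0 0) * cB.hu 4 (y' / x) * cB.xu 4 (P 0 1 / P 0 0) := by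
      conv_lhs => rw [sl2_LDU P hY0]
      rw [map_mul, map_mul, h4.L, h4.U, h4.map_D, h43, hY]
    have hcY := tor_comm_phi4 x hx Y
    calc phi4 Y * (e₁ * cB.xu 3 γ * tor2 x y * cB.xu 4 δ * e₂) * (phi4 Y)⁻¹
        = phi4 Y * (e₁ * (tor2 x x * phi4 M) * e₂) * (phi4 Y)⁻¹ := by
          rw [hphiM, tor2_split hx hy, mul_assoc e₁ (cB.xu 3 γ), ← mul_assoc (cB.xu 3 γ), hc3]
          group
      _ = phi4 Y * e₁ * (phi4 Y)⁻¹ * (phi4 Y * tor2 x x * (phi4 Y)⁻¹) * phi4 P * (phi4 Y * e₂ * (phi4 Y)⁻¹) := by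
          have hPM : phi4 P = phi4 Y * phi4 M * (phi4 Y)⁻¹ := by simp only [P, map_mul, map_inv]
          rw [hPM]; group
      _ = _ := by
          rw [← hcY.eq, mul_inv_cancel_right, hphiP, tor2_split hx hy',
            show ∀ a : GG, a * cB.xu 3 (P 1 0 / P 0 0) * (tor2 x x * cB.hu 4 (y' / x)) =
              a * (cB.xu 3 (P 1 0 / P 0 0) * tor2 x x) * cB.hu 4 (y' / x) from fun a => by group, hc3']
          group

end Cfsg.Agent.Chev.B2Cov
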