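import Cfsg.Agent.Chev.B2Cov.Cell
import Cfsg.Agent.Chev.G2Cov.Q4

/-!
Covering by the square of a semisimple class in type `B₂ = C₂`: odd `q`, and even `q ≥ 8`.
-/

set_option autoImplicit false

universe u

namespace Cfsg.Agent.Chev.B2Cov

open Cfsg.Lie
open Cfsg.Agent.Chev.G2Odd (RootHom exists_rootHom hu_conj sl2D coe_sl2D sl2W_eq)
open Cfsg.Agent.Chev.G2Cov (gMk coe_gMk gU gL gD gW coe_gU coe_gL coe_gD coe_gW gl2_ext gl2_det_ne NonScalar scalar_of_not
  detU coe_detU slPart exists_conj_corner trace_conj det_conj eq_LDU isConj_of_trace_det exists_factor exists_quad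
  exists_irred_trace pow_card_succ nonScalar_of_irred exists_twist Opt Good Good.of_conj Opt.conj)
open scoped Matrix MatrixGroups

variable {F : Type u} [Field F]

local notation "GL₂" => GL (Fin 2) F
local notation "GG" => GL chevB2.Idx F

/-- The element of the abelian radical with symmetric matrix `(a b; b c)`. -/
noncomputable def eS (a b c : F) : GG := cB.xu 4 c * cB.xu 6 (-b) * cB.xu 7 (-a)

theorem posExcept_zero {r : ℕ} (h : r = 4 ∨ r = 6 ∨ r = 7) : posExcept chevB2 0 r := by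
  rcases h with rfl | rfl | rfl <;> unfold posExcept <;> decide +kernel

theorem eS_mem (a b c : F) : eS a b c ∈ QP F 0 :=
  mul_mem (mul_mem (Cert.xu_mem_span cB (posExcept_zero (Or.inl rfl)) _)
    (Cert.xu_mem_span cB (posExcept_zero (Or.inr (Or.inl rfl))) _))
    (Cert.xu_mem_span cB (posExcept_zero (Or.inr (Or.inr rfl))) _)

theorem comm46 (t v : F) : Commute (cB.xu 4 t) (cB.xu 6 v) :=
  commute_xu (by norm_num) (by norm_num) (by norm_num) (by decide +kernel) (by decide +kernel) t v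

theorem comm47 (t v : F) : Commute (cB.xu 4 t) (cB.xu 7 v) :=
  commute_xu (by norm_num) (by norm_num) (by norm_num) (by decide +kernel) (by decide +kernel) t v

theorem comm67 (t v : F) : Commute (cB.xu 6 t) (cB.xu 7 v) :=
  commute_xu (by norm_num) (by norm_num) (by norm_num) (by decide +kernel) (by decide +kernel) t v

theorem eS_mul (a b c a' b' c' : F) : eS a b c * eS a' b' c' = eS (a + a') (b + b') (c + c') := by
  have h1 : Commute (cB.xu 6 (-b) * cB.xu 7 (-a)) (cB.xu 4 c') :=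
    Commute.mul_left (comm46 _ _).symm (comm47 _ _).symm
  have h2 := comm67 (-b') (-a)
  calc eS a b c * eS a' b' c'
      = cB.xu 4 c * (cB.xu 6 (-b) * cB.xu 7 (-a) * cB.xu 4 c') * (cB.xu 6 (-b') * cB.xu 7 (-a')) := by
        rw [eS, eS]; group
    _ = (cB.xu 4 c * cB.xu 4 c') * cB.xu 6 (-b) * (cB.xu 7 (-a) * cB.xu 6 (-b')) * cB.xu 7 (-a') := by
        rw [h1.eq]; group
    _ = (cB.xu 4 c * cB.xu 4 c') * (cB.xu 6 (-b) * cB.xu 6 (-b')) * (cB.xu 7 (-a) * cB.xu 7 (-a')) := by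
        rw [← h2.eq]; group
    _ = _ := by rw [Cert.xu_add, Cert.xu_add, Cert.xu_add, eS]; congr <;> ring

theorem eS_zero : eS (0 : F) 0 0 = 1 := by simp [eS, Cert.xu_zero]

theorem xu4_eq (t : F) : cB.xu 4 t = eS 0 0 t := by simp [eS, Cert.xu_zero]
theorem xu6_eq (t : F) : cB.xu 6 t = eS 0 (-t) 0 := by simp [eS, Cert.xu_zero]
theorem xu7_eq (t : F) : cB.xu 7 t = eS (-t) 0 0 := by simp [eS, Cert.xu_zero]

theorem eS_inj {a b c a' b' c' : F} (h : eS a b c = eS a' b' c') : a = a' ∧ b = b' ∧ c = c' := by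
  have hl : chevB2.posRoots = [4, 5, 6, 7] := by decide +kernel
  have hp : ∀ a b c : F, cB.prodU (fun r => if r = 4 then c else if r = 6 then -b else if r = 7 then -a else 0) =
      eS a b c := by
    intro a b c
    simp [Cert.prodU, hl, Cert.wu, eS, Cert.xu_zero, mul_assoc]
  have := Cert.prodU_inj cB ((hp a b c).trans (h.trans (hp a' b' c').symm))
  have k4 := this 4 (by decide +kernel)
  have k6 := this 6 (by decide +kernel)
  have k7 := this 7 (by decide +kernel)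
  simp at k4 k6 k7
  exact ⟨k7, k6, k4⟩

theorem exists_eS {e : GG} (he : e ∈ QP F 0) : ∃ a b c : F, e = eS a b c := by
  obtain ⟨t, ht, e'⟩ := Cert.exists_prodU cB (P := posExcept chevB2 0)
    (Cert.closedSet_posExcept cB.{u} (by decide +kernel)) he
  have h5 : t 5 = 0 := by
    by_contra h
    exact (ht 5 h).2 (by decide +kernel)
  refine ⟨-t 7, -t 6, t 4, ?_⟩
  have hl : chevB2.posRoots = [4, 5, 6, 7] := by decide +kernel
  rw [e', eS, neg_neg, neg_neg]
  simp [Cert.prodU, hl, Cert.wu, h5, Cert.xu_zero, mul_assoc]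

theorem conj_prod3 (n p q r : GG) : n * (p * q * r) * n⁻¹ = (n * p * n⁻¹) * (n * q * n⁻¹) * (n * r * n⁻¹) := by
  group

/-- The image of `(a b; b c)` under congruence by `A`. -/
def Acts (A : GL₂) : Prop := ∀ a b c : F, Psi A * eS a b c * (Psi A)⁻¹ =
  eS (A.val 0 0 * A.val 0 0 * a + 2 * (A.val 0 0 * A.val 0 1) * b + A.val 0 1 * A.val 0 1 * c)
    (A.val 0 0 * A.val 1 0 * a + (A.val 0 0 * A.val 1 1 + A.val 0 1 * A.val 1 0) * b + A.val 0 1 * A.val 1 1 * c)
    (A.val 1 0 * A.val 1 0 * a + 2 * (A.val 1 0 * A.val 1 1) * b + A.val 1 1 * A.val 1 1 * c)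

theorem Acts.mul {A B : GL₂} (hA : Acts A) (hB : Acts B) : Acts (A * B) := by
  intro a b c
  rw [map_mul, show Psi A * Psi B * eS a b c * (Psi A * Psi B)⁻¹ = Psi A * (Psi B * eS a b c * (Psi B)⁻¹) * (Psi A)⁻¹
    by group, hB, hA]
  congr 1 <;> simp [Matrix.mul_apply, Fin.sum_univ_two] <;> ring

theorem acts_gU (t : F) : Acts (gU t) := by
  intro a b c
  have e4 := conj_word (F := F) (L := [(6, -1, 1, 1), (7, -1, 2, 1)]) (r := 5) (s := 4) (by norm_num) (by norm_num)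
    (by norm_num) (by decide +kernel) (by decide +kernel) t c
  have e6 := conj_word (F := F) (L := [(7, 2, 1, 1)]) (r := 5) (s := 6) (by norm_num) (by norm_num)
    (by norm_num) (by decide +kernel) (by decide +kernel) t (-b)
  have e7 := conj_word (F := F) (L := []) (r := 5) (s := 7) (by norm_num) (by norm_num)
    (by norm_num) (by decide +kernel) (by decide +kernel) t (-a)
  simp at e4 e6 e7
  rw [Psi_gU, eS, conj_prod3, e4, e6, e7]
  simp only [xu4_eq, xu6_eq, xu7_eq, eS_mul]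
  congr 1 <;> simp <;> ring

theorem acts_gL (t : F) : Acts (gL t) := by
  intro a b c
  have e4 := conj_word (F := F) (L := []) (r := 2) (s := 4) (by norm_num) (by norm_num)
    (by norm_num) (by decide +kernel) (by decide +kernel) t c
  have e6 := conj_word (F := F) (L := [(4, -2, 1, 1)]) (r := 2) (s := 6) (by norm_num) (by norm_num)
    (by norm_num) (by decide +kernel) (by decide +kernel) t (-b)
  have e7 := conj_word (F := F) (L := [(6, 1, 1, 1), (4, -1, 2, 1)]) (r := 2) (s := 7) (by norm_num) (by norm_num)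
    (by norm_num) (by decide +kernel) (by decide +kernel) t (-a)
  simp at e4 e6 e7
  rw [Psi_gL, eS, conj_prod3, e4, e6, e7]
  simp only [xu4_eq, xu6_eq, xu7_eq, eS_mul]
  congr 1 <;> simp <;> ring

theorem acts_gD (p q : F) (hp : p ≠ 0) (hq : q ≠ 0) : Acts (gD p q hp hq) := by
  intro a b c
  have hpq := mul_ne_zero hp hq
  rw [Psi_gD, eS, conj_prod3, tor2_conj hp hpq (lt_of 4), tor2_conj hp hpq (lt_of 6), tor2_conj hp hpq (lt_of 7),
    show pairInt chevB2 5 4 = -2 by decide +kernel, show pairInt chevB2 4 4 = 2 by decide +kernel,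
    show pairInt chevB2 5 6 = 0 by decide +kernel, show pairInt chevB2 4 6 = 1 by decide +kernel,
    show pairInt chevB2 5 7 = 2 by decide +kernel, show pairInt chevB2 4 7 = 0 by decide +kernel,
    show (-2 : ℤ) = -((2 : ℕ) : ℤ) by norm_num, zpow_neg, show (2 : ℤ) = ((2 : ℕ) : ℤ) by norm_num, zpow_natCast,
    zpow_natCast, zpow_zero, zpow_zero, zpow_one]
  simp only [xu4_eq, xu6_eq, xu7_eq, eS_mul]
  congr 1 <;> simp <;> field_simp <;> exact Or.inl trivial

theorem acts (A : GL₂) : Acts A := by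
  have h : ∀ A : GL₂, A.val 0 0 ≠ 0 → Acts A := fun A h => by
    rw [eq_LDU A h]
    exact (acts_gL _).mul (acts_gD _ _ _ _) |>.mul (acts_gU _)
  by_cases h0 : A.val 0 0 = 0
  · have h10 : A.val 1 0 ≠ 0 := fun e => gl2_det_ne A (by rw [h0, e]; ring)
    have e : A = gU 1 * (gU (-1) * A) := by
      apply gl2_ext <;> simp [Matrix.mul_apply, Matrix.vecMul, dotProduct, Fin.sum_univ_two]
    rw [e]
    exact (acts_gU 1).mul (h _ (by simpa [Matrix.mul_apply, Matrix.vecMul, dotProduct, Fin.sum_univ_two, h0] using h10))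
  · exact h A h0

/-- `g` is a product of two conjugates of `x`. -/
def Cov (x g : GG) : Prop :=
  ∃ u ∈ chevB2.group F, ∃ v ∈ chevB2.group F, g = (u * x * u⁻¹) * (v * x * v⁻¹)

theorem Cov.of_conj {x g : GG} {y : GG} (hy : y ∈ chevB2.group F) (h : Cov x (y * g * y⁻¹)) : Cov x g := by
  obtain ⟨u, hu, v, hv, e⟩ := h
  refine ⟨y⁻¹ * u, mul_mem (inv_mem hy) hu, y⁻¹ * v, mul_mem (inv_mem hy) hv, ?_⟩
  calc g = y⁻¹ * (y * g * y⁻¹) * y := by group
    _ = _ := by rw [e]; group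

theorem inv_trace_det (A : GL₂) :
    (A⁻¹).val.trace = A.val.det⁻¹ * A.val.trace ∧ (A⁻¹).val.det = A.val.det⁻¹ := by
  rw [Matrix.coe_units_inv, Matrix.det_nonsing_inv, Ring.inverse_eq_inv', Matrix.inv_def, Ring.inverse_eq_inv',
    Matrix.adjugate_fin_two, Matrix.trace_smul, Matrix.trace_fin_two_of, smul_eq_mul, Matrix.trace_fin_two,
    add_comm (A.val 1 1)]
  exact ⟨rfl, rfl⟩

theorem inv_val00 (A : GL₂) : (A⁻¹).val 0 0 = A.val.det⁻¹ * A.val 1 1 := by
  rw [Matrix.coe_units_inv, Matrix.inv_def, Ring.inverse_eq_inv', Matrix.adjugate_fin_two]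
  rfl

theorem nonScalar_of_disc {A : GL₂} (h : A.val.trace * A.val.trace - 4 * A.val.det ≠ 0) : NonScalar A := by
  by_contra hc
  obtain ⟨h1, h2, h3⟩ := scalar_of_not hc
  apply h
  rw [Matrix.trace_fin_two, Matrix.det_fin_two, h1, ← h3]
  ring

/-- A torus or anisotropic element acting on the radical without fixed points. -/
structure Seed (T : GL₂) : Prop where
  h00 : T.val 0 0 ≠ 0
  disc : T.val.trace * T.val.trace - 4 * T.val.det ≠ 0
  fix : ∀ e ∈ QP F 0, e * Psi T = Psi T * e → e = 1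

namespace Seed

variable {T : GL (Fin 2) F} (hT : Seed T)
include hT

theorem real : ∃ W : GL₂, nInv F * Psi T * (nInv F)⁻¹ = Psi (W * T⁻¹ * W⁻¹) := by
  obtain ⟨B, e, ht, hd, -⟩ := nInv_Psi T hT.h00
  have hne : T.val.det ≠ 0 := by rw [Matrix.det_fin_two]; exact gl2_det_ne T
  have hns : ∀ Z : GL₂, Z.val.trace = (T⁻¹).val.trace → Z.val.det = (T⁻¹).val.det → NonScalar Z := by
    intro Z h1 h2
    refine nonScalar_of_disc ?_
    rw [h1, h2, (inv_trace_det T).1, (inv_trace_det T).2]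
    intro h
    apply hT.disc
    field_simp at h
    linear_combination h
  obtain ⟨W, hW⟩ := isConj_of_trace_det (hns _ rfl rfl) (hns B ht hd) ht.symm hd.symm
  exact ⟨W, by rw [e, hW]⟩

theorem opt_class {B : GL₂} (hB : Opt T B) :
    ∃ u ∈ chevB2.group F, Psi B = u * Psi T * u⁻¹ := by
  obtain ⟨Y, rfl | rfl⟩ := hB
  · exact ⟨Psi Y, Psi_mem Y, by rw [map_mul, map_mul, map_inv]⟩
  · obtain ⟨W, hW⟩ := hT.real
    refine ⟨Psi Y * (Psi W)⁻¹ * nInv F, mul_mem (mul_mem (Psi_mem Y) (inv_mem (Psi_mem W))) nInv_mem, ?_⟩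
    rw [show Psi Y * (Psi W)⁻¹ * nInv F * Psi T * (Psi Y * (Psi W)⁻¹ * nInv F)⁻¹ =
      Psi Y * (Psi W)⁻¹ * (nInv F * Psi T * (nInv F)⁻¹) * Psi W * (Psi Y)⁻¹ by group, hW]
    simp only [map_mul, map_inv]
    group

theorem fix_opt {B : GL₂} (hB : Opt T B) : ∀ e ∈ QP F 0, e * Psi B = Psi B * e → e = 1 := by
  intro e he hc
  obtain ⟨Y, hY⟩ := hB
  have h1 : (Psi Y)⁻¹ * e * Psi Y ∈ QP F 0 := (Subgroup.mem_normalizer_iff''.mp (Psi_norm_QP Y) e).mp he
  have h3 : Commute ((Psi Y)⁻¹ * e * Psi Y) ((Psi Y)⁻¹ * Psi B * Psi Y) := by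
    show _ * _ = _ * _
    calc (Psi Y)⁻¹ * e * Psi Y * ((Psi Y)⁻¹ * Psi B * Psi Y) = (Psi Y)⁻¹ * (e * Psi B) * Psi Y := by group
      _ = _ := by rw [hc]; group
  have h4 : Commute ((Psi Y)⁻¹ * e * Psi Y) (Psi T) := by
    rcases hY with rfl | rfl
    · rwa [map_mul, map_mul, map_inv, show (Psi Y)⁻¹ * (Psi Y * Psi T * (Psi Y)⁻¹) * Psi Y = Psi T by group] at h3
    · rw [map_mul, map_mul, map_inv, map_inv,
        show (Psi Y)⁻¹ * (Psi Y * (Psi T)⁻¹ * (Psi Y)⁻¹) * Psi Y = (Psi T)⁻¹ by group] at h3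
      simpa using h3.inv_right
  have h5 := hT.fix _ h1 h4
  calc e = Psi Y * ((Psi Y)⁻¹ * e * Psi Y) * (Psi Y)⁻¹ := by group
    _ = 1 := by rw [h5]; group

theorem fixN_opt {B : GL₂} (hB : Opt T B) : ∀ e ∈ QN F 0, e * Psi B = Psi B * e → e = 1 := by
  intro e he hc
  obtain ⟨Y, hY⟩ := hB
  obtain ⟨W, hW⟩ := hT.real
  have h1 : (Psi Y)⁻¹ * e * Psi Y ∈ QN F 0 := (Subgroup.mem_normalizer_iff''.mp (Psi_norm_QN Y) e).mp he
  have h3 : Commute ((Psi Y)⁻¹ * e * Psi Y) ((Psi Y)⁻¹ * Psi B * Psi Y) := by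
    show _ * _ = _ * _
    calc (Psi Y)⁻¹ * e * Psi Y * ((Psi Y)⁻¹ * Psi B * Psi Y) = (Psi Y)⁻¹ * (e * Psi B) * Psi Y := by group
      _ = _ := by rw [hc]; group
  have h4 : Commute ((Psi Y)⁻¹ * e * Psi Y) (Psi T) := by
    rcases hY with rfl | rfl
    · rwa [map_mul, map_mul, map_inv, show (Psi Y)⁻¹ * (Psi Y * Psi T * (Psi Y)⁻¹) * Psi Y = Psi T by group] at h3
    · rw [map_mul, map_mul, map_inv, map_inv,
        show (Psi Y)⁻¹ * (Psi Y * (Psi T)⁻¹ * (Psi Y)⁻¹) * Psi Y = (Psi T)⁻¹ by group] at h3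
      simpa using h3.inv_right
  have h5 : Commute (MulAut.conj (nInv F) ((Psi Y)⁻¹ * e * Psi Y)) (MulAut.conj (nInv F) (Psi T)) := h4.map _
  rw [MulAut.conj_apply, MulAut.conj_apply, hW] at h5
  have h6 := hT.fix_opt ⟨W, Or.inr rfl⟩ _ (conj_QN h1) h5
  calc e = Psi Y * (nInv F)⁻¹ * (nInv F * ((Psi Y)⁻¹ * e * Psi Y) * (nInv F)⁻¹) * nInv F * (Psi Y)⁻¹ := by group
    _ = 1 := by rw [h6]; group

theorem cov_inv {g : GG} (h : Cov (Psi T) g⁻¹) : Cov (Psi T) g := by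
  obtain ⟨u, hu, v, hv, e⟩ := h
  obtain ⟨w, hw, ew⟩ := hT.opt_class (B := T⁻¹) ⟨1, Or.inr (by group)⟩
  rw [map_inv] at ew
  refine ⟨v * w, mul_mem hv hw, u * w, mul_mem hu hw, ?_⟩
  rw [← inv_inv g, e]
  calc (u * Psi T * u⁻¹ * (v * Psi T * v⁻¹))⁻¹ = v * (Psi T)⁻¹ * v⁻¹ * (u * (Psi T)⁻¹ * u⁻¹) := by group
    _ = _ := by rw [ew]; group

theorem cov [Fintype F] {A : GL₂} {g : GG} (hr : Rep A g) (hg : Good T A) : Cov (Psi T) g := by
  classical
  obtain ⟨e₁, h1, e₂, h2, rfl⟩ := hr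
  obtain ⟨B, C, hB, hC, rfl⟩ := hg
  obtain ⟨w, hw, ew⟩ := (exists_twist _ _ (Psi_norm_QN B) (hT.fixN_opt hB)).1 e₁ h1
  obtain ⟨z, hz, ez⟩ := (exists_twist _ _ (Psi_norm_QP C) (hT.fix_opt hC)).2 e₂ h2
  obtain ⟨u, hu, eu⟩ := hT.opt_class hB
  obtain ⟨v, hv, ev⟩ := hT.opt_class hC
  refine ⟨w * u, mul_mem (QN_le_group 0 hw) hu, z * v, mul_mem (QP_le_group 0 hz) hv, ?_⟩
  rw [map_mul]
  calc e₁ * (Psi B * Psi C) * e₂ = (e₁ * Psi B) * (Psi C * e₂) := by group
    _ = _ := by rw [ew, ez, eu, ev]; group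

end Seed

/-- Inverting exchanges the two radicals. -/
theorem exists_swap (A : GL₂) {e₁ e₂ : GG} (h1 : e₁ ∈ QN F 0) (h2 : e₂ ∈ QP F 0) :
    ∃ y ∈ chevB2.group F, ∃ B : GL₂, B.val.trace = A.val.trace ∧ B.val.det = A.val.det ∧
      ∃ e₁' ∈ QN F 0, ∃ e₂' ∈ QP F 0, y * (e₁ * Psi A * e₂)⁻¹ * y⁻¹ = e₁' * Psi B * e₂' ∧
        (e₂ = 1 → e₁' = 1) ∧ (e₂' = 1 → e₁ = 1) := by
  obtain ⟨Y, hY⟩ : ∃ Y : GL₂, (Y * A * Y⁻¹).val 1 1 ≠ 0 := by
    by_cases hns : NonScalar A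
    · obtain ⟨Y, hY⟩ := exists_conj_corner A hns (A.val.trace - 1)
      refine ⟨Y, ?_⟩
      have := trace_conj Y A
      rw [Matrix.trace_fin_two, hY] at this
      rw [show (Y * A * Y⁻¹).val 1 1 = 1 by linear_combination this]
      exact one_ne_zero
    · obtain ⟨s1, s2, s3⟩ := scalar_of_not hns
      refine ⟨1, ?_⟩
      rw [one_mul, inv_one, mul_one, ← s3]
      exact fun e => gl2_det_ne A (by rw [e, s1]; ring)
  set A' := Y * A * Y⁻¹ with hA'
  have hd : A'.val.det ≠ 0 := by rw [Matrix.det_fin_two]; exact gl2_det_ne A'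
  obtain ⟨B, e, ht, hdet, -⟩ := nInv_Psi A'⁻¹ (by rw [inv_val00]; exact mul_ne_zero (inv_ne_zero hd) hY)
  rw [inv_inv] at ht hdet
  have c1 : Psi Y * e₁ * (Psi Y)⁻¹ ∈ QN F 0 := (Subgroup.mem_normalizer_iff.mp (Psi_norm_QN Y) _).mp h1
  have c2 : Psi Y * e₂ * (Psi Y)⁻¹ ∈ QP F 0 := (Subgroup.mem_normalizer_iff.mp (Psi_norm_QP Y) _).mp h2
  refine ⟨nInv F * Psi Y, mul_mem nInv_mem (Psi_mem Y), B, by rw [ht, trace_conj], by rw [hdet, det_conj],
    nInv F * (Psi Y * e₂ * (Psi Y)⁻¹)⁻¹ * (nInv F)⁻¹, ?_,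
    nInv F * (Psi Y * e₁ * (Psi Y)⁻¹)⁻¹ * (nInv F)⁻¹, conj_QN (inv_mem c1), ?_, ?_, ?_⟩
  · exact Subgroup.mem_map.mpr ⟨_, inv_mem c2, rfl⟩
  · rw [← e, hA', map_inv, map_mul, map_mul, map_inv]; group
  · intro h; rw [h]; group
  · intro h
    calc e₁ = (Psi Y)⁻¹ * ((nInv F)⁻¹ * (nInv F * (Psi Y * e₁ * (Psi Y)⁻¹)⁻¹ * (nInv F)⁻¹) * nInv F)⁻¹ * Psi Y := by group
      _ = 1 := by rw [h]; group

/-- A conjugate with Levi part of determinant one. -/
def Det1 (g : GG) : Prop := ∃ y ∈ chevB2.group F, ∃ A : GL₂, A.val.det = 1 ∧ Rep A (y * g * y⁻¹)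

theorem Det1.of_conj {g y : GG} (hy : y ∈ chevB2.group F) (h : Det1 (y * g * y⁻¹)) : Det1 g := by
  obtain ⟨z, hz, A, hA, hr⟩ := h
  refine ⟨z * y, mul_mem hz hy, A, hA, ?_⟩
  rw [show z * y * g * (z * y)⁻¹ = z * (y * g * y⁻¹) * z⁻¹ by group]
  exact hr

theorem det1_of_cell {x : F} (hx : x ≠ 0) {v u : GG} (hv : v ∈ chevB2.negUnipotent F)
    (hu : u ∈ chevB2.posUnipotent F) : Det1 (v * tor2 x 1 * u) := by
  obtain ⟨α, β, hr⟩ := Rep.of_cell hx one_ne_zero hv hu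
  refine ⟨1, one_mem _, _, ?_, by rw [one_mul, inv_one, mul_one]; exact hr⟩
  rw [LDU_det, mul_div_cancel₀ _ hx]

theorem det1_klingen {x y : F} (hx : x ≠ 0) (hy : y ≠ 0) {e₁ e₂ : GG} (h1 : e₁ ∈ QN F 1) (h2 : e₂ ∈ QP F 1)
    {γ δ : F} (hns : γ ≠ 0 ∨ δ ≠ 0 ∨ (y / x) * (y / x) ≠ 1) :
    Det1 (e₁ * cB.xu 3 γ * tor2 x y * cB.xu 4 δ * e₂) := by
  obtain ⟨Y, hY, v, hv, u, hu, e⟩ := klingen_step hx hy h1 h2 hns one_ne_zero
  exact Det1.of_conj hY (e ▸ det1_of_cell hx hv hu)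

theorem exists_avoid {a b c d : F} (h : a ≠ 0 ∨ b ≠ 0) (h' : c ≠ 0 ∨ d ≠ 0) :
    ∃ s t : F, a * s + b * t ≠ 0 ∧ c * s + d * t ≠ 0 := by
  by_cases h1 : a ≠ 0 ∧ c ≠ 0
  · exact ⟨1, 0, by simpa using h1.1, by simpa using h1.2⟩
  by_cases h2 : b ≠ 0 ∧ d ≠ 0
  · exact ⟨0, 1, by simpa using h2.1, by simpa using h2.2⟩
  refine ⟨1, 1, ?_⟩
  push Not at h1 h2
  rcases h with h | h
  · have hc := h1 h
    subst hc
    have hd := h'.resolve_left (not_not_intro rfl)
    have hb : b = 0 := by by_contra hb; exact hd (h2 hb)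
    simp [hb, h, hd]
  · have hd := h2 h
    subst hd
    have hc := h'.resolve_right (not_not_intro rfl)
    have ha : a = 0 := by by_contra ha; exact hc (h1 ha)
    simp [ha, h, hc]

theorem det1_e2 (h2 : (2 : F) ≠ 0) (A : GL₂) {e₁ e₂ : GG} (h1 : e₁ ∈ QN F 0) (he2 : e₂ ∈ QP F 0) (hne : e₂ ≠ 1) :
    Det1 (e₁ * Psi A * e₂) := by
  obtain ⟨a, b, c, rfl⟩ := exists_eS he2
  obtain ⟨p, q, hpq, hval⟩ : ∃ p q : F, (p ≠ 0 ∨ q ≠ 0) ∧ p * p * a + 2 * (p * q) * b + q * q * c ≠ 0 := by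
    by_cases hc : c = 0
    · by_cases ha : a = 0
      · refine ⟨1, 1, Or.inl one_ne_zero, ?_⟩
        subst ha hc
        have hb : b ≠ 0 := fun hb => hne (by rw [hb, eS_zero])
        simpa using mul_ne_zero h2 hb
      · exact ⟨1, 0, Or.inl one_ne_zero, by simpa using ha⟩
    · exact ⟨0, 1, Or.inr one_ne_zero, by simpa using hc⟩
  have hd := gl2_det_ne A
  obtain ⟨s, t, hL1, hL2⟩ := exists_avoid (a := q) (b := -p) (c := A.val 0 0 * q - A.val 0 1 * p)
    (d := A.val 1 0 * q - A.val 1 1 * p) (by rcases hpq with h | h <;> simp [h]) (by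
      by_contra hc
      push Not at hc
      obtain ⟨c1, c2⟩ := hc
      rcases hpq with h | h
      · exact mul_ne_zero hd h (by linear_combination (A.val 1 0) * c1 - (A.val 0 0) * c2)
      · exact mul_ne_zero hd h (by linear_combination (A.val 1 1) * c1 - (A.val 0 1) * c2))
  set Y : GL₂ := gMk s t p q (fun e => hL1 (by linear_combination e)) with hYdef
  have hne' : s * q - t * p ≠ 0 := fun e => hL1 (by linear_combination e)
  have h00 : (Y * A * Y⁻¹).val 0 0 ≠ 0 := by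
    simp only [Units.val_mul, Matrix.coe_units_inv]
    simp [Y, Matrix.inv_def, Matrix.adjugate_fin_two, Matrix.mul_apply, Matrix.vecMul, dotProduct, Fin.sum_univ_two,
      Matrix.det_fin_two]
    intro e
    apply hL2
    field_simp at e
    linear_combination e
  refine Det1.of_conj (Psi_mem Y) ?_
  set A' := Y * A * Y⁻¹ with hA'
  set e₁' := Psi Y * e₁ * (Psi Y)⁻¹
  have m1 : e₁' ∈ QN F 0 := (Subgroup.mem_normalizer_iff.mp (Psi_norm_QN Y) _).mp h1
  set a' := Y.val 0 0 * Y.val 0 0 * a + 2 * (Y.val 0 0 * Y.val 0 1) * b + Y.val 0 1 * Y.val 0 1 * c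
  set b' := Y.val 0 0 * Y.val 1 0 * a + (Y.val 0 0 * Y.val 1 1 + Y.val 0 1 * Y.val 1 0) * b + Y.val 0 1 * Y.val 1 1 * c
  set c' := Y.val 1 0 * Y.val 1 0 * a + 2 * (Y.val 1 0 * Y.val 1 1) * b + Y.val 1 1 * Y.val 1 1 * c
  have hc' : c' ≠ 0 := by simpa [c', Y] using hval
  have key : Psi Y * (e₁ * Psi A * eS a b c) * (Psi Y)⁻¹ = e₁' * Psi A' * eS a' b' c' := by
    rw [← acts Y a b c, hA', map_mul, map_mul, map_inv]; simp only [e₁']; group
  have hv : e₁' * cB.xu 2 (A'.val 1 0 / A'.val 0 0) ∈ chevB2.negUnipotent F := mul_mem (QN_le 0 m1) (by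
    simpa [show chevB2.neg 5 = 2 by decide +kernel] using fundS.xu_neg_mem (A'.val 1 0 / A'.val 0 0))
  obtain ⟨e, he, γ, eγ⟩ := fundK.exists_neg hv
  rw [show chevB2.neg 4 = 3 by decide +kernel] at eγ
  have hdet : A'.val.det ≠ 0 := by rw [Matrix.det_fin_two]; exact gl2_det_ne A'
  have hQ : ∀ r, r = 5 ∨ r = 6 ∨ r = 7 → ∀ w : F, cB.xu r w ∈ QP F 1 := by
    intro r hr w
    refine Cert.xu_mem_span cB ?_ w
    rcases hr with rfl | rfl | rfl <;> unfold posExcept <;> decide +kernel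
  set β := A'.val 0 1 / A'.val 0 0
  have hu : (cB.xu 4 c')⁻¹ * cB.xu 5 β * cB.xu 4 c' * (cB.xu 6 (-b') * cB.xu 7 (-a')) ∈ QP F 1 := by
    refine mul_mem ?_ (mul_mem (hQ 6 (Or.inr (Or.inl rfl)) _) (hQ 7 (Or.inr (Or.inr rfl)) _))
    have h := fundK.norm_QP (sl2U c')
    rw [h4.U] at h
    exact (Subgroup.mem_normalizer_iff''.mp h _).mp (hQ 5 (Or.inl rfl) β)
  rw [key]
  have : e₁' * Psi A' * eS a' b' c' = e * cB.xu 3 γ * tor2 (A'.val 0 0) A'.val.det * cB.xu 4 c' *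
      ((cB.xu 4 c')⁻¹ * cB.xu 5 β * cB.xu 4 c' * (cB.xu 6 (-b') * cB.xu 7 (-a'))) := by
    rw [← eγ]
    conv_lhs => rw [eq_LDU A' h00]
    rw [map_mul, map_mul, Psi_gL, Psi_gU, Psi_gD, mul_div_cancel₀ _ h00, Matrix.det_fin_two, eS]
    simp only [β]
    group
  rw [this]
  exact det1_klingen h00 hdet he hu (Or.inr (Or.inl hc'))

theorem det1_odd (h2 : (2 : F) ≠ 0) {g : GG} (hg : g ∈ chevB2.group F) : Det1 g ∨ Det1 g⁻¹ := by
  obtain ⟨y₀, hy₀, v, hv, h, hh, u, hu, e⟩ := exists_conj_cell hg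
  obtain ⟨x, y, hx, hy, rfl⟩ := exists_tor2 hh
  by_cases hy1 : y = 1
  · subst hy1
    exact Or.inl (Det1.of_conj hy₀ (e ▸ det1_of_cell hx hv hu))
  obtain ⟨α, β, e₁, h1, e₂, he2, er⟩ := Rep.of_cell hx hy hv hu
  rw [er] at e
  set A := gL α * gD x (y / x) hx (div_ne_zero hy hx) * gU β
  have hA : A.val.det = y := by rw [LDU_det, mul_div_cancel₀ _ hx]
  by_cases hne : e₂ = 1
  swap
  · exact Or.inl (Det1.of_conj hy₀ (e ▸ det1_e2 h2 A h1 he2 hne))
  by_cases hne1 : e₁ = 1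
  swap
  · obtain ⟨z, hz, B, -, -, e₁', m1, e₂', m2, ez, -, k2⟩ := exists_swap A h1 he2
    refine Or.inr (Det1.of_conj (mul_mem hz hy₀) ?_)
    rw [show z * y₀ * g⁻¹ * (z * y₀)⁻¹ = z * (y₀ * g * y₀⁻¹)⁻¹ * z⁻¹ by group, e, ez]
    exact det1_e2 h2 B m1 m2 fun h => hne1 (k2 h)
  subst hne hne1
  simp only [one_mul, mul_one] at e
  refine Or.inl (Det1.of_conj hy₀ ?_)
  rw [e]
  obtain ⟨a, b, c, hmove⟩ : ∃ a b c : F, Psi A * eS a b c * (Psi A)⁻¹ ≠ eS a b c := by
    by_contra hc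
    push Not at hc
    have k1 := eS_inj ((acts A 1 0 0).symm.trans (hc 1 0 0))
    have k2 := eS_inj ((acts A 0 1 0).symm.trans (hc 0 1 0))
    simp at k1 k2
    obtain ⟨f1, f2, f3⟩ := k1
    obtain ⟨-, f5, -⟩ := k2
    apply hy1
    rw [← hA, Matrix.det_fin_two]
    have h10 : A.val 1 0 = 0 := by
      first
        | exact f3
        | exact mul_self_eq_zero.mp f3
    rw [h10, mul_zero, add_zero] at f5
    rw [h10, mul_zero, sub_zero]
    exact f5
  refine Det1.of_conj (y := eS a b c) (QP_le_group 0 (eS_mem a b c)) ?_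
  have : eS a b c * Psi A * (eS a b c)⁻¹ = 1 * Psi A * ((Psi A)⁻¹ * eS a b c * Psi A * (eS a b c)⁻¹) := by group
  rw [this]
  refine det1_e2 h2 A (one_mem _) (mul_mem ((Subgroup.mem_normalizer_iff''.mp (Psi_norm_QP A) _).mp (eS_mem a b c))
    (inv_mem (eS_mem a b c))) fun h => hmove ?_
  have h' := mul_inv_eq_one.mp h
  calc Psi A * eS a b c * (Psi A)⁻¹ = Psi A * ((Psi A)⁻¹ * eS a b c * Psi A) * (Psi A)⁻¹ := by rw [h']
    _ = eS a b c := by group

theorem det1_even (h2 : (2 : F) = 0) (h3 : ∃ s : F, s ≠ 0 ∧ s ≠ 1) {g : GG} (hg : g ∈ chevB2.group F) : Det1 g := by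
  have sq : ∀ z : F, z * z = 1 → z = 1 := fun z hz => by
    have : (z - 1) * (z - 1) = 0 := by linear_combination hz + (1 - z) * h2
    exact sub_eq_zero.mp (mul_self_eq_zero.mp this)
  have go : ∀ (x y : F) (hx : x ≠ 0) (hy : y ≠ 0), ∀ v ∈ chevB2.negUnipotent F, ∀ u ∈ chevB2.posUnipotent F,
      y ≠ x → Det1 (v * tor2 x y * u) := by
    intro x y hx hy v hv u hu hne
    obtain ⟨e₁, h1, γ, rfl⟩ := fundK.exists_neg hv
    obtain ⟨δ, e₂, he2, rfl⟩ := fundK.exists_pos hu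
    rw [show chevB2.neg 4 = 3 by decide +kernel,
      show e₁ * cB.xu 3 γ * tor2 x y * (cB.xu 4 δ * e₂) = e₁ * cB.xu 3 γ * tor2 x y * cB.xu 4 δ * e₂ by group]
    refine det1_klingen hx hy h1 he2 (Or.inr (Or.inr fun h => hne ?_))
    have := sq _ h
    rw [div_eq_one_iff_eq hx] at this
    exact this
  obtain ⟨y₀, hy₀, v, hv, h, hh, u, hu, e⟩ := exists_conj_cell hg
  obtain ⟨x, y, hx, hy, rfl⟩ := exists_tor2 hh
  refine Det1.of_conj hy₀ ?_
  rw [e]
  by_cases hne : y = x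
  swap
  · exact go x y hx hy v hv u hu hne
  subst hne
  by_cases hy1 : y = 1
  · subst hy1; exact det1_of_cell hx hv hu
  obtain ⟨α, β, hr⟩ := Rep.of_cell hx hy hv hu
  have hns : NonScalar (gL α * gD y (y / y) hy (div_ne_zero hy hy) * gU β) := by
    by_contra hc
    obtain ⟨-, -, h⟩ := LDU_scalar hc
    rw [div_self hy] at h
    exact hy1 h
  obtain ⟨x', hx', hne'⟩ : ∃ x' : F, x' ≠ 0 ∧ y ≠ x' := ⟨1, one_ne_zero, hy1⟩
  obtain ⟨Y, hY, v', hv', u', hu', e'⟩ := siegel_step hx hy hr hns hx'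
  exact Det1.of_conj hY (e' ▸ go x' y hx' hy v' hv' u' hu' hne')

variable [Fintype F]

set_option maxHeartbeats 1600000 in
/-- Determinant one is good in odd characteristic. -/
theorem good_odd (h2 : (2 : F) ≠ 0) {a : F} (ha : a ≠ 0) (hirr : ∀ r : F, r * r - a * r - 1 ≠ 0) (A : GL₂)
    (hA : A.val.det = 1) : Good (gMk a 1 1 0 (by simp)) A := by
  set T := gMk a 1 1 0 (by simp) with hTdef
  have hTd : T.val.det = -1 := by simp [T]
  have hTns : NonScalar T := Or.inl (by simp [T])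
  have hTinv : (T⁻¹ : GL₂) = gMk 0 1 1 (-a) (by simp) := inv_eq_of_mul_eq_one_right (by
    apply gl2_ext <;> simp [T, Matrix.mul_apply, Fin.sum_univ_two])
  by_cases hns : NonScalar A
  · obtain ⟨x, w, m, hm, hq⟩ := exists_quad h2 ha A.val.trace
    obtain ⟨X, Y, rfl, tX, dX, tY, dY⟩ := exists_factor hns (p := a) (n := -1) (m := m) (x := x) (w := w)
      (neg_ne_zero.mpr one_ne_zero) (by rw [hA]; linear_combination hq)
    have dY' : Y.val.det = -1 := by rw [dY, hA]; simp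
    have hns' : ∀ Z : GL₂, Z.val.det = -1 → (Z.val.trace = a ∨ Z.val.trace = -a) → NonScalar Z := by
      intro Z dZ tZ
      refine nonScalar_of_irred fun r e => ?_
      rw [dZ] at e
      rcases tZ with t | t <;> rw [t] at e
      · exact hirr r (by linear_combination e)
      · exact hirr (-r) (by linear_combination e)
    obtain ⟨U, hU⟩ := isConj_of_trace_det hTns (hns' X dX (Or.inl tX))
      (by rw [tX]; simp [T, Matrix.trace_fin_two]) (by rw [dX, hTd])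
    refine ⟨X, Y, ⟨U, Or.inl hU⟩, ?_, rfl⟩
    rcases hm with rfl | rfl
    · obtain ⟨V, hV⟩ := isConj_of_trace_det hTns (hns' Y dY' (Or.inl tY))
        (by rw [tY]; simp [T, Matrix.trace_fin_two]) (by rw [dY', hTd])
      exact ⟨V, Or.inl hV⟩
    · obtain ⟨V, hV⟩ := isConj_of_trace_det (g := T⁻¹) (by rw [hTinv]; exact Or.inl (by simp))
        (hns' Y dY' (Or.inr tY))
        (by rw [tY, hTinv]; simp [Matrix.trace_fin_two]) (by rw [dY', hTinv]; simp)
      exact ⟨V, Or.inr hV⟩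
  · obtain ⟨h01, h10, h11⟩ := scalar_of_not hns
    rw [Matrix.det_fin_two, h01, ← h11, zero_mul, sub_zero] at hA
    rcases mul_self_eq_one_iff.mp hA with h | h
    · refine ⟨T, T⁻¹, ⟨1, Or.inl (by group)⟩, ⟨1, Or.inr (by group)⟩, ?_⟩
      rw [mul_inv_cancel]
      apply gl2_ext <;> simp [h01, h10, ← h11, h]
    · obtain ⟨V, hV⟩ := isConj_of_trace_det (g := T) (h := gMk 0 (-1) (-1) a (by simp)) hTns
        (Or.inl (by simp)) (by simp [T, Matrix.trace_fin_two]) (by rw [hTd]; simp)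
      refine ⟨T, gMk 0 (-1) (-1) a (by simp), ⟨1, Or.inl (by group)⟩, ⟨V, Or.inl hV⟩, ?_⟩
      apply gl2_ext <;> simp [T, Matrix.mul_apply, Fin.sum_univ_two, h01, h10, ← h11, h]

set_option maxHeartbeats 1600000 in
/-- Determinant one is good in characteristic two. -/
theorem good_even (h2 : (2 : F) = 0) {p q : F} (hp : p ≠ 0) (hq : q ≠ 0) (hd : p ≠ q) (A : GL₂)
    (hA : A.val.det = 1) : Good (gD p q hp hq) A := by
  set T := gD p q hp hq with hTdef
  by_cases hns : NonScalar A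
  · obtain ⟨Y, hY⟩ := exists_conj_corner A hns 1
    refine Good.of_conj (Y := Y) ?_
    have hdet := det_conj Y A
    rw [hA, Matrix.det_fin_two, hY] at hdet
    set B := Y * A * Y⁻¹
    have hTns : NonScalar T := Or.inr (Or.inr (by simpa [T] using hd))
    have hTins : NonScalar (T⁻¹ : GL₂) := by
      by_contra hc
      obtain ⟨h1, h2, h3⟩ := scalar_of_not hc
      have hcm : (T⁻¹ : GL₂) = gD (p)⁻¹ (q)⁻¹ (inv_ne_zero hp) (inv_ne_zero hq) :=
        inv_eq_of_mul_eq_one_right (by apply gl2_ext <;> simp [T, Matrix.mul_apply, Fin.sum_univ_two, hp, hq])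
      rw [hcm] at h3
      simp at h3
      exact hd h3
    have hTi : (T⁻¹ : GL₂).val = !![(p)⁻¹, 0; 0, (q)⁻¹] := by
      rw [Matrix.coe_units_inv]
      refine Matrix.inv_eq_right_inv ?_
      ext i j; fin_cases i <;> fin_cases j <;> simp [T, Matrix.mul_apply, Fin.sum_univ_two, hp, hq]
    obtain ⟨U, hU⟩ := isConj_of_trace_det (g := T) (h := gL (B.val 1 0) * T) hTns
      (Or.inr (Or.inr (by simpa [T, Matrix.mul_apply, Fin.sum_univ_two] using hd)))
      (by simp [T, Matrix.trace_fin_two, Matrix.mul_apply, Fin.sum_univ_two])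
      (by simp [T, Matrix.det_fin_two, Matrix.mul_apply, Fin.sum_univ_two])
    obtain ⟨V, hV⟩ := isConj_of_trace_det (g := T⁻¹) (h := T⁻¹ * gU (B.val 0 1)) hTins
      (Or.inr (Or.inr (by
        simp only [Units.val_mul, hTi, coe_gU]
        simp [Matrix.mul_apply, Fin.sum_univ_two]
        exact hd)))
      (by simp only [Units.val_mul, hTi, coe_gU]; simp [Matrix.trace_fin_two, Matrix.mul_apply, Fin.sum_univ_two])
      (by simp only [Units.val_mul, hTi, coe_gU, Matrix.det_mul]; simp)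
    refine ⟨_, _, ⟨U, Or.inl hU⟩, ⟨V, Or.inr hV⟩, ?_⟩
    rw [mul_assoc, ← mul_assoc T, mul_inv_cancel, one_mul]
    apply gl2_ext <;> simp [Matrix.mul_apply, Fin.sum_univ_two, hY]
    linear_combination hdet
  · obtain ⟨h01, h10, h11⟩ := scalar_of_not hns
    rw [Matrix.det_fin_two, h01, ← h11, zero_mul, sub_zero] at hA
    have h : A.val 0 0 = 1 := by
      rcases mul_self_eq_one_iff.mp hA with h | h
      · exact h
      · rw [h]; linear_combination -h2
    refine ⟨T, T⁻¹, ⟨1, Or.inl (by group)⟩, ⟨1, Or.inr (by group)⟩, ?_⟩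
    rw [mul_inv_cancel]
    apply gl2_ext <;> simp [h01, h10, ← h11, h]

/-- Odd characteristic. -/
theorem cover_odd (h2 : (2 : F) ≠ 0) :
    ∃ T : GL₂, T ^ (2 * (Fintype.card F + 1)) = 1 ∧ ∀ g ∈ chevB2.group F, Cov (Psi T) g := by
  obtain ⟨a, ha, hirr⟩ := exists_irred_trace h2
  set T := gMk a 1 1 0 (by simp) with hTdef
  have hpow : T ^ (Fintype.card F + 1) = gD (-1) (-1) (neg_ne_zero.mpr one_ne_zero) (neg_ne_zero.mpr one_ne_zero) := by
    apply Units.ext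
    rw [Units.val_pow_eq_pow_val, pow_card_succ hirr _ (by
      ext i j; fin_cases i <;> fin_cases j <;> simp [T, Matrix.mul_apply, Fin.sum_univ_two])]
    ext i j; fin_cases i <;> fin_cases j <;> simp
  have hseed : Seed T := by
    refine ⟨by simp [T, ha], ?_, fun e he hc => ?_⟩
    · simp [T, Matrix.trace_fin_two]
      intro h
      apply hirr (a / 2)
      field_simp
      linear_combination -h
    · obtain ⟨x, y, z, rfl⟩ := exists_eS he
      have := acts T x y z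
      rw [← hc, mul_inv_cancel_right] at this
      obtain ⟨k1, k2, k3⟩ := eS_inj this
      simp [T] at k1 k2 k3
      subst k3
      have hz : z = 0 := k2.resolve_left ha
      subst hz
      have hy : y = 0 := (mul_eq_zero.mp (show 2 * a * y = 0 by linear_combination -k1)).resolve_left (mul_ne_zero h2 ha)
      rw [hy, eS_zero]
  refine ⟨T, ?_, fun g hg => ?_⟩
  · rw [mul_comm, pow_mul, hpow, sq]
    apply gl2_ext <;> simp [Matrix.mul_apply, Fin.sum_univ_two]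
  rcases det1_odd h2 hg with ⟨y, hy, A, hA, hr⟩ | ⟨y, hy, A, hA, hr⟩
  · exact Cov.of_conj hy (hseed.cov hr (good_odd h2 ha hirr A hA))
  · exact hseed.cov_inv (Cov.of_conj hy (hseed.cov hr (good_odd h2 ha hirr A hA)))

/-- Characteristic two, at least eight elements. -/
theorem cover_even (h2 : (2 : F) = 0) (h8 : 7 ≤ Fintype.card F) :
    ∃ T : GL₂, T ^ (Fintype.card F - 1) = 1 ∧ ∀ g ∈ chevB2.group F, Cov (Psi T) g := by
  classical
  obtain ⟨γ, hγ⟩ := IsCyclic.exists_generator (α := Fˣ)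
  have hord : orderOf γ = Fintype.card F - 1 := by
    rw [orderOf_eq_card_of_forall_mem_zpowers hγ, Nat.card_eq_fintype_card, Fintype.card_units]
  have hne : ∀ j : ℕ, 0 < j → j ≤ 5 → (γ : F) ^ j ≠ 1 := by
    intro j hj hj5 e
    have : γ ^ j = 1 := Units.ext (by simpa using e)
    have := Nat.le_of_dvd hj (orderOf_dvd_of_pow_eq_one this)
    omega
  set g0 : F := (γ : F)
  have hg0 : g0 ≠ 0 := γ.ne_zero
  have hd : g0 ≠ g0 ^ 2 := fun e => hne 1 one_pos (by norm_num)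
    (mul_left_cancel₀ hg0 (by linear_combination -e))
  set T := gD g0 (g0 ^ 2) hg0 (pow_ne_zero 2 hg0) with hTdef
  have hseed : Seed T := by
    refine ⟨by simp [T, hg0], ?_, fun e he hc => ?_⟩
    · simp [T, Matrix.trace_fin_two]
      intro h
      apply hd
      have h' : (g0 - g0 ^ 2) * (g0 - g0 ^ 2) = 0 := by linear_combination h
      exact sub_eq_zero.mp (mul_self_eq_zero.mp h')
    · obtain ⟨x, y, z, rfl⟩ := exists_eS he
      have := acts T x y z
      rw [← hc, mul_inv_cancel_right] at this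
      obtain ⟨k1, k2, k3⟩ := eS_inj this
      simp [T] at k1 k2 k3
      have hx : x = 0 := by
        by_contra h
        exact hne 2 (by norm_num) (by norm_num) (mul_right_cancel₀ h (by linear_combination -k1))
      have hy : y = 0 := by
        by_contra h
        exact hne 3 (by norm_num) (by norm_num) (mul_right_cancel₀ h (by linear_combination -k2))
      have hz : z = 0 := by
        by_contra h
        exact hne 4 (by norm_num) (by norm_num) (mul_right_cancel₀ h (by linear_combination -k3))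
      rw [hx, hy, hz, eS_zero]
  refine ⟨T, ?_, fun g hg => ?_⟩
  · apply Units.ext
    rw [Units.val_pow_eq_pow_val, hTdef, coe_gD, show (!![g0, 0; 0, g0 ^ 2] : Matrix (Fin 2) (Fin 2) F) =
      Matrix.diagonal ![g0, g0 ^ 2] by ext i j; fin_cases i <;> fin_cases j <;> simp,
      Matrix.diagonal_pow]
    have h1 : g0 ^ (Fintype.card F - 1) = 1 := FiniteField.pow_card_sub_one_eq_one g0 hg0
    ext i j; fin_cases i <;> fin_cases j <;> simp [← pow_mul, mul_comm, h1] <;>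
      simp [mul_comm _ (Fintype.card F - 1), pow_mul, h1]
  obtain ⟨y, hy, A, hA, hr⟩ := det1_even h2 ⟨g0, hg0, fun e => hne 1 one_pos (by norm_num) (by simpa using e)⟩ hg
  exact Cov.of_conj hy (hseed.cov hr (good_even h2 hg0 (pow_ne_zero 2 hg0) hd A hA))

end Cfsg.Agent.Chev.B2Cov
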