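import Cfsg.Agent.Chev.G2Cov.Levi
import Cfsg.Agent.Chev.VerifyB2

/-!
The Siegel Levi subgroup of `B₂ = C₂` as an image of `GL₂`.
-/

set_option autoImplicit false

universe u

namespace Cfsg.Agent.Chev.B2Cov

open Cfsg.Lie
open Cfsg.Agent.Chev.G2Odd (RootHom exists_rootHom hu_conj sl2D coe_sl2D sl2W_eq)
open Cfsg.Agent.Chev.G2Cov hiding LeviData
open scoped Matrix MatrixGroups

variable {F : Type u} [Field F]

local notation "GL₂" => GL (Fin 2) F
local notation "SL₂" => Matrix.SpecialLinearGroup (Fin 2) F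
local notation "GG" => GL chevB2.Idx F

/-- The certificate used throughout. -/
noncomputable abbrev cB : Cert.{u} chevB2 := certB2

theorem lt_of (r : ℕ) (h : r < 8 := by norm_num) : r < chevB2.nroots := h

theorem simple0 : chevB2.simple 0 = 5 := by decide +kernel
theorem simple1 : chevB2.simple 1 = 4 := by decide +kernel

/-- A root `SL₂` with a one-dimensional torus acting on it as `diag(1, c)`. -/
structure LeviData (F : Type u) [Field F] where
  r : ℕ
  phi : Matrix.SpecialLinearGroup (Fin 2) F →* GL chevB2.Idx F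
  tor : Fˣ →* GL chevB2.Idx F
  hphi : RootHom cB r phi
  conjU : ∀ (c : Fˣ) (t : F), tor c * cB.xu r t * (tor c)⁻¹ = cB.xu r ((c : F)⁻¹ * t)
  conjL : ∀ (c : Fˣ) (t : F), tor c * cB.xu (chevB2.neg r) t * (tor c)⁻¹ = cB.xu (chevB2.neg r) ((c : F) * t)

namespace LeviData

variable (L : LeviData F)

theorem tor_phi (c : Fˣ) (g : SL₂) : L.tor c * L.phi g * (L.tor c)⁻¹ = L.phi (sigma c g) := by
  refine sl2_induction (fun g => L.tor c * L.phi g * (L.tor c)⁻¹ = L.phi (sigma c g)) ?_ ?_ ?_ g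
  · intro t
    have e : sigma c (sl2U t) = sl2U ((c : F)⁻¹ * t) := by
      apply Subtype.ext
      rw [coe_sigma]
      ext i j
      fin_cases i <;> fin_cases j <;> simp [sl2U]
    rw [e, L.hphi.U, L.hphi.U, L.conjU]
  · have e : sigma c (sl2W : SL₂) = sl2U (c : F)⁻¹ * sl2L (-(c : F)) * sl2U (c : F)⁻¹ := by
      apply Subtype.ext
      simp only [Matrix.SpecialLinearGroup.coe_mul, coe_sigma]
      ext i j
      fin_cases i <;> fin_cases j <;>
        simp [sl2U, sl2L, sl2W, Matrix.mul_apply, Fin.sum_univ_two]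
    rw [e, sl2W_eq]
    simp only [map_mul, L.hphi.U, L.hphi.L]
    have h1 := L.conjU c 1
    have h2 := L.conjL c (-1)
    rw [mul_one] at h1
    rw [mul_neg_one] at h2
    rw [← h1, ← h2]; group
  · intro a b ha hb
    simp only [map_mul]
    rw [← ha, ← hb]; group

/-- The homomorphism from `GL₂`. -/
noncomputable def hom : GL₂ →* GG where
  toFun g := L.tor (detU g) * L.phi (slPart g)
  map_one' := by
    have e : slPart (1 : GL₂) = 1 := by
      apply Subtype.ext; ext i j; fin_cases i <;> fin_cases j <;> simp [slPart, detU]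
    rw [e]; simp [detU]
  map_mul' g h := by
    rw [slPart_mul, map_mul, ← L.tor_phi, show detU (g * h) = detU g * detU h from map_mul _ _ _, map_mul,
      map_inv]
    group

theorem hom_apply (g : GL₂) : L.hom g = L.tor (detU g) * L.phi (slPart g) := rfl

theorem hom_gU (t : F) : L.hom (gU t) = cB.xu L.r t := by
  have e : detU (gU t : GL₂) = 1 := Units.ext (by simp [coe_detU])
  have e' : slPart (gU t : GL₂) = sl2U t := by
    apply Subtype.ext; ext i j; fin_cases i <;> fin_cases j <;> simp [slPart, sl2U, e]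
  rw [hom_apply, e, e', map_one, one_mul, L.hphi.U]

theorem hom_gL (t : F) : L.hom (gL t) = cB.xu (chevB2.neg L.r) t := by
  have e : detU (gL t : GL₂) = 1 := Units.ext (by simp [coe_detU])
  have e' : slPart (gL t : GL₂) = sl2L t := by
    apply Subtype.ext; ext i j; fin_cases i <;> fin_cases j <;> simp [slPart, sl2L, e]
  rw [hom_apply, e, e', map_one, one_mul, L.hphi.L]

theorem hom_gD (a b : F) (ha : a ≠ 0) (hb : b ≠ 0) :
    L.hom (gD a b ha hb) = L.tor (Units.mk0 (a * b) (mul_ne_zero ha hb)) * cB.hu L.r a := by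
  have e : detU (gD a b ha hb) = Units.mk0 (a * b) (mul_ne_zero ha hb) := Units.ext (by simp [coe_detU])
  have e' : slPart (gD a b ha hb) = sl2D a ha := by
    apply Subtype.ext; ext i j
    fin_cases i <;> fin_cases j <;> simp [slPart, e, hb, mul_comm]
  rw [hom_apply, e, e', L.hphi.map_D]

theorem hom_LDU (g : GL₂) (h : g.val 0 0 ≠ 0) :
    L.hom g = cB.xu (chevB2.neg L.r) (g.val 1 0 / g.val 0 0) *
      L.hom (gD (g.val 0 0) ((g.val 0 0 * g.val 1 1 - g.val 0 1 * g.val 1 0) / g.val 0 0) h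
        (div_ne_zero (gl2_det_ne g) h)) * cB.xu L.r (g.val 0 1 / g.val 0 0) := by
  conv_lhs => rw [eq_LDU g h]
  rw [map_mul, map_mul, hom_gL, hom_gU]

theorem hom_mem (htor : ∀ c, L.tor c ∈ chevB2.group F) (g : GL₂) : L.hom g ∈ chevB2.group F :=
  mul_mem (htor _) (L.hphi.mem_group _)

end LeviData

/-- The root homomorphism of the short fundamental root. -/
noncomputable def phi5 : SL₂ →* GG := (exists_rootHom (F := F) cB (lt_of 5)).choose

theorem h5 : RootHom cB 5 (phi5 (F := F)) := (exists_rootHom (F := F) cB (lt_of 5)).choose_spec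

/-- The root homomorphism of the long fundamental root. -/
noncomputable def phi4 : SL₂ →* GG := (exists_rootHom (F := F) cB (lt_of 4)).choose

theorem h4 : RootHom cB 4 (phi4 (F := F)) := (exists_rootHom (F := F) cB (lt_of 4)).choose_spec

/-- `c ↦ h_4(c)`. -/
noncomputable def tor4 : Fˣ →* GG where
  toFun c := cB.hu 4 (c : F)
  map_one' := by rw [Units.val_one, Cert.hu_one]
  map_mul' a b := by rw [Units.val_mul, Cert.hu_mul cB (lt_of 4) a.ne_zero b.ne_zero]

/-- The torus element with coordinates `x`, `y`. -/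
noncomputable def tor2 (x y : F) : GG := cB.hu 5 x * cB.hu 4 y

/-- The Siegel Levi subgroup. -/
noncomputable def LS : LeviData F where
  r := 5
  phi := phi5
  tor := tor4
  hphi := h5
  conjU c t := by
    show cB.hu 4 (c : F) * _ * (cB.hu 4 (c : F))⁻¹ = _
    rw [hu_conj cB (lt_of 4) (lt_of 5) c.ne_zero, show pairInt chevB2 4 5 = -1 by decide +kernel, zpow_neg_one]
  conjL c t := by
    show cB.hu 4 (c : F) * _ * (cB.hu 4 (c : F))⁻¹ = _
    rw [show chevB2.neg 5 = 2 by decide +kernel, hu_conj cB (lt_of 4) (lt_of 2) c.ne_zero,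
      show pairInt chevB2 4 2 = 1 by decide +kernel, zpow_one]

/-- The map of `GL₂` onto the Siegel Levi subgroup. -/
noncomputable abbrev Psi : GL₂ →* GG := (LS (F := F)).hom

theorem Psi_gU (t : F) : Psi (gU t : GL₂) = cB.xu 5 t := LeviData.hom_gU LS t

theorem Psi_gL (t : F) : Psi (gL t : GL₂) = cB.xu 2 t := by
  rw [Psi, LeviData.hom_gL, show (LS (F := F)).r = 5 from rfl, show chevB2.neg 5 = 2 by decide +kernel]

theorem Psi_gD (a b : F) (ha : a ≠ 0) (hb : b ≠ 0) : Psi (gD a b ha hb) = tor2 a (a * b) := by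
  rw [Psi, LeviData.hom_gD]
  exact Cert.hu_comm cB (lt_of 4) (lt_of 5) (mul_ne_zero ha hb) ha

theorem tor2_conj {x y : F} (hx : x ≠ 0) (hy : y ≠ 0) {s : ℕ} (hs : s < chevB2.nroots) (t : F) :
    tor2 x y * cB.xu s t * (tor2 x y)⁻¹ = cB.xu s (x ^ pairInt chevB2 5 s * y ^ pairInt chevB2 4 s * t) := by
  rw [tor2, show ∀ a b z : GG, a * b * z * (a * b)⁻¹ = a * (b * z * b⁻¹) * a⁻¹ from fun a b z => by group,
    hu_conj cB (lt_of 4) hs hy, hu_conj cB (lt_of 5) hs hx, ← mul_assoc]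

theorem tor2_mem {x y : F} (hx : x ≠ 0) (hy : y ≠ 0) : tor2 x y ∈ chevB2.diagonalSubgroup F :=
  mul_mem (Cert.hu_simple_mem_diagonal cB (lt_of 5) hx) (Cert.hu_simple_mem_diagonal cB (lt_of 4) hy)

theorem exists_tor2 {h : GG} (hh : h ∈ chevB2.diagonalSubgroup F) :
    ∃ x y : F, x ≠ 0 ∧ y ≠ 0 ∧ h = tor2 x y := by
  obtain ⟨c, hc, e⟩ := (Cert.mem_diagonal_iff cB).mp hh
  refine ⟨c 0, c 1, hc 0 (by decide +kernel), hc 1 (by decide +kernel), e.trans ?_⟩
  have hl : List.range chevB2.rank = [0, 1] := by decide +kernel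
  rw [Cert.torusElt, hl]
  simp only [List.flatMap_cons, List.flatMap_nil, List.append_nil, Cert.wu_append]
  rw [simple0, simple1]
  rfl

theorem Psi_mem (g : GL₂) : Psi g ∈ chevB2.group F :=
  LS.hom_mem (fun _ => Cert.wu_mem_group cB _) g

/-- Conjugating one root element by another, as an explicit word. -/
theorem conj_word {r s : ℕ} (hr : r < 8) (hs : s < 8) (hne : s ≠ r) (hneg : s ≠ chevB2.neg r)
    {L : List (ℕ × ℤ × ℕ × ℕ)} (hL : chevB2.commTerms r s = L) (t v : F) :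
    cB.xu r t * cB.xu s v * (cB.xu r t)⁻¹ =
      cB.xu s v * (L.map fun c => cB.xu c.1 ((c.2.1 : F) * t ^ c.2.2.1 * v ^ c.2.2.2)).prod := by
  rw [Cert.conj_xu cB hr hs hne hneg, Cert.wu, ChevalleyDatum.commWord, hL, List.map_map]
  simp [Function.comp_def]

theorem commute_xu {r s : ℕ} (hr : r < 8) (hs : s < 8) (hne : s ≠ r) (hneg : s ≠ chevB2.neg r)
    (hL : chevB2.commTerms r s = []) (t v : F) : Commute (cB.xu r t) (cB.xu s v) := by
  have := conj_word hr hs hne hneg hL t v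
  simp at this
  exact mul_inv_eq_iff_eq_mul.mp this

/-! ### The element inverting the torus -/

/-- `n` carries root elements to root elements along `σ`, with reciprocal scalars on opposite roots. -/
def MapsRoot (n : GG) (σ : ℕ → ℕ) : Prop :=
  ∃ c : ℕ → F, ∀ r < 8, σ r < 8 ∧ σ (chevB2.neg r) = chevB2.neg (σ r) ∧ c r * c (chevB2.neg r) = 1 ∧
    ∀ t, n * cB.xu r t * n⁻¹ = cB.xu (σ r) (c r * t)

theorem MapsRoot.comp {n m : GG} {σ τ : ℕ → ℕ} (hn : MapsRoot n σ) (hm : MapsRoot m τ) :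
    MapsRoot (n * m) (σ ∘ τ) := by
  obtain ⟨d, hd⟩ := hn
  obtain ⟨c, hc⟩ := hm
  refine ⟨fun r => d (τ r) * c r, fun r hr => ?_⟩
  obtain ⟨h1, h2, h3, e⟩ := hc r hr
  obtain ⟨g1, g2, g3, e'⟩ := hd _ h1
  refine ⟨g1, by show σ (τ _) = _; rw [h2, g2]; rfl, ?_, fun t => ?_⟩
  · show d (τ r) * c r * (d (τ (chevB2.neg r)) * c (chevB2.neg r)) = 1
    rw [h2]; linear_combination (c r * c (chevB2.neg r)) * g3 + h3
  · rw [show n * m * cB.xu r t * (n * m)⁻¹ = n * (m * cB.xu r t * m⁻¹) * n⁻¹ by group, e, e', ← mul_assoc]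
    rfl

theorem mapsRoot_nu {i : ℕ} (hi : i < 2) :
    MapsRoot (cB.nu (chevB2.simple i) (1 : F)) (chevB2.reflectRoot i) := by
  refine ⟨fun r => ((cB.{u}.eta i r : ℤ) : F), fun r hr =>
    ⟨cB.{u}.refl_lt i hi r hr, cB.{u}.refl_neg hi hr, ?_, fun t => ?_⟩⟩
  · have := congrArg (Int.cast (R := F)) (cB.{u}.eta_neg i hi r hr)
    rw [Int.cast_mul, Int.cast_one] at this
    exact this
  · rw [Cert.nu_conj cB hi hr, mul_inv_cancel_right]

theorem mapsRoot_hu {i : ℕ} (hi : i < 8) {c : F} (hc : c ≠ 0) : MapsRoot (cB.hu i c) id := by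
  refine ⟨fun r => c ^ pairInt chevB2 i r, fun r hr => ⟨hr, rfl, ?_, fun t => hu_conj cB hi hr hc t⟩⟩
  have h : ∀ i < 8, ∀ r < 8, pairInt chevB2 i r + pairInt chevB2 i (chevB2.neg r) = 0 := by decide +kernel
  rw [← zpow_add₀ hc, h i hi r hr, zpow_zero]

/-- `n` carries torus elements along `σ`. -/
def MapsHu (n : GG) (σ : ℕ → ℕ) : Prop :=
  ∀ r < 8, σ r < 8 ∧ ∀ c : F, c ≠ 0 → n * cB.hu r c * n⁻¹ = cB.hu (σ r) c

theorem MapsHu.comp {n m : GG} {σ τ : ℕ → ℕ} (hn : MapsHu n σ) (hm : MapsHu m τ) :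
    MapsHu (n * m) (σ ∘ τ) := by
  intro r hr
  obtain ⟨h1, e⟩ := hm r hr
  obtain ⟨h2, e'⟩ := hn _ h1
  refine ⟨h2, fun c hc => ?_⟩
  rw [show n * m * cB.hu r c * (n * m)⁻¹ = n * (m * cB.hu r c * m⁻¹) * n⁻¹ by group, e c hc, e' c hc]
  rfl

theorem mapsHu_nu {i : ℕ} (hi : i < 2) : MapsHu (cB.nu (chevB2.simple i) (1 : F)) (chevB2.reflectRoot i) :=
  fun r hr => ⟨cB.{u}.refl_lt i hi r hr, fun c hc => by
    rw [Cert.nu_simple_conj_hu cB hi hr hc, mul_inv_cancel_right]⟩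

theorem mapsHu_hu {i : ℕ} (hi : i < 8) {a : F} (ha : a ≠ 0) : MapsHu (cB.hu i a) id :=
  fun r hr => ⟨hr, fun c hc => by rw [Cert.hu_comm cB hi hr ha hc, mul_inv_cancel_right]; rfl⟩

/-- The element inverting the torus. -/
noncomputable def nInv (F : Type u) [Field F] : GL chevB2.Idx F := cB.nu 4 1 * cB.nu 7 1

theorem nInv_mem : nInv F ∈ chevB2.group F := mul_mem (Cert.nu_mem_group cB _ _) (Cert.nu_mem_group cB _ _)

theorem nInv_monomial : nInv F ∈ chevB2.monomialSubgroup F := by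
  have h : ∀ r < 8, cB.nu r (1 : F) ∈ chevB2.monomialSubgroup F := fun r hr =>
    Subgroup.mem_sup_right (Subgroup.subset_closure ⟨_, hr, Cert.coe_nu cB _ _⟩)
  exact mul_mem (h 4 (by norm_num)) (h 7 (by norm_num))

theorem nInv_diag {h : GG} (hh : h ∈ chevB2.diagonalSubgroup F) :
    (nInv F)⁻¹ * h * nInv F ∈ chevB2.diagonalSubgroup F :=
  Cert.monomial_conj_diagonal' cB nInv_monomial hh

theorem nInv_eq : ∃ a : F, a ≠ 0 ∧ nInv F =
    cB.nu 4 1 * (cB.nu 5 1 * (cB.hu 4 a * cB.nu 4 1) * (cB.hu 5 (-1) * cB.nu 5 1)) := by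
  set η : F := ((cB.{u}.eta 0 4 : ℤ) : F) with hη
  have h0 : η ≠ 0 := by
    rcases cB.{u}.eta_sign 0 (by decide +kernel) 4 (lt_of 4) with h | h <;> simp [η, h]
  refine ⟨η⁻¹, inv_ne_zero h0, ?_⟩
  have k := Cert.nu_simple_conj_nu cB (i := 0) (r := 4) (by decide +kernel) (lt_of 4) η⁻¹
  rw [simple0, show chevB2.reflectRoot 0 4 = 7 by decide +kernel, ← hη, mul_inv_cancel₀ h0] at k
  have a := Cert.nu_simple_eq cB (i := 1) (by decide +kernel) η⁻¹
  have b := Cert.nu_simple_eq cB (i := 0) (by decide +kernel) (-1 : F)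
  rw [simple1] at a
  rw [simple0] at b
  rw [nInv, ← a, ← b, ← Cert.nu_inv cB 5 1, ← k]

theorem sigma_neg (r : ℕ) (hr : r < 8) : chevB2.reflectRoot 1 (chevB2.reflectRoot 0 (chevB2.reflectRoot 1
    (chevB2.reflectRoot 0 r))) = chevB2.neg r := by
  revert r; decide +kernel

theorem nInv_maps : MapsRoot (nInv F) chevB2.neg := by
  obtain ⟨a, ha, e⟩ := nInv_eq (F := F)
  have a0 := mapsRoot_nu (F := F) (i := 0) (by norm_num)
  have a1 := mapsRoot_nu (F := F) (i := 1) (by norm_num)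
  rw [simple0] at a0
  rw [simple1] at a1
  have h : MapsRoot (nInv F) (chevB2.reflectRoot 1 ∘ ((chevB2.reflectRoot 0 ∘ (id ∘ chevB2.reflectRoot 1)) ∘
      (id ∘ chevB2.reflectRoot 0))) :=
    e ▸ a1.comp ((a0.comp ((mapsRoot_hu (lt_of 4) ha).comp a1)).comp
      ((mapsRoot_hu (lt_of 5) (neg_ne_zero.mpr one_ne_zero)).comp a0))
  obtain ⟨c, hc⟩ := h
  refine ⟨c, fun r hr => ?_⟩
  obtain ⟨h1, h2, h3, h4⟩ := hc r hr
  simp only [Function.comp_apply, id_eq] at h1 h2 h4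
  rw [sigma_neg r hr] at h1 h2 h4
  rw [sigma_neg _ (cB.{u}.neg_lt r hr)] at h2
  exact ⟨h1, h2, h3, h4⟩

theorem nInv_hu {r : ℕ} (hr : r < 8) {c : F} (hc : c ≠ 0) :
    nInv F * cB.hu r c * (nInv F)⁻¹ = cB.hu r c⁻¹ := by
  obtain ⟨a, ha, e⟩ := nInv_eq (F := F)
  have a0 := mapsHu_nu (F := F) (i := 0) (by norm_num)
  have a1 := mapsHu_nu (F := F) (i := 1) (by norm_num)
  rw [simple0] at a0
  rw [simple1] at a1
  have h : MapsHu (nInv F) (chevB2.reflectRoot 1 ∘ ((chevB2.reflectRoot 0 ∘ (id ∘ chevB2.reflectRoot 1)) ∘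
      (id ∘ chevB2.reflectRoot 0))) :=
    e ▸ a1.comp ((a0.comp ((mapsHu_hu (lt_of 4) ha).comp a1)).comp
      ((mapsHu_hu (lt_of 5) (neg_ne_zero.mpr one_ne_zero)).comp a0))
  have := (h r hr).2 c hc
  simp only [Function.comp_apply, id_eq] at this
  rw [this, sigma_neg r hr, Cert.hu_neg_root cB hr hc]

/-- The torus inverting element on the Siegel Levi subgroup. -/
theorem nInv_Psi (A : GL₂) (h0 : A.val 0 0 ≠ 0) :
    ∃ B : GL₂, nInv F * Psi A * (nInv F)⁻¹ = Psi B ∧ B.val.trace = (A⁻¹).val.trace ∧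
      B.val.det = (A⁻¹).val.det ∧ (¬ NonScalar A → B = A⁻¹) := by
  obtain ⟨c, hc⟩ := nInv_maps (F := F)
  obtain ⟨-, -, hcc, e5⟩ := hc 5 (by norm_num)
  obtain ⟨-, -, -, e2⟩ := hc 2 (by norm_num)
  rw [show chevB2.neg 5 = 2 by decide +kernel] at e5 hcc
  rw [show chevB2.neg 2 = 5 by decide +kernel] at e2
  set a : F := A.val 0 0
  set b : F := (A.val 0 0 * A.val 1 1 - A.val 0 1 * A.val 1 0) / A.val 0 0
  have hb : b ≠ 0 := div_ne_zero (gl2_det_ne A) h0
  set α : F := A.val 1 0 / A.val 0 0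
  set β : F := A.val 0 1 / A.val 0 0
  have hA : A = gL α * gD a b h0 hb * gU β := eq_LDU A h0
  refine ⟨gU (c 2 * α) * gD a⁻¹ b⁻¹ (inv_ne_zero h0) (inv_ne_zero hb) * gL (c 5 * β), ?_, ?_, ?_, ?_⟩
  · rw [hA, map_mul, map_mul, map_mul, map_mul, Psi_gL, Psi_gU, Psi_gU, Psi_gL, Psi_gD, Psi_gD,
      show ∀ n p q r : GG, n * (p * q * r) * n⁻¹ = (n * p * n⁻¹) * (n * q * n⁻¹) * (n * r * n⁻¹) from
        fun n p q r => by group, e2, e5, tor2, tor2,
      show ∀ n q r : GG, n * (q * r) * n⁻¹ = (n * q * n⁻¹) * (n * r * n⁻¹) from fun n q r => by group,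
      nInv_hu (lt_of 5) h0, nInv_hu (lt_of 4) (mul_ne_zero h0 hb), mul_inv]
  all_goals
    have hi : (A⁻¹).val = !![(1 + α * β * a / b) / a, -β / b; -α / b, 1 / b] := by
      rw [Matrix.coe_units_inv]
      refine Matrix.inv_eq_right_inv ?_
      conv_lhs => rw [hA]
      ext i j
      fin_cases i <;> fin_cases j <;> simp [Matrix.mul_apply, Fin.sum_univ_two] <;> field_simp <;> ring
  · rw [hi]
    simp [Matrix.trace_fin_two]
    field_simp
    linear_combination (α * β * a) * hcc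
  · rw [hi]
    simp [Matrix.det_fin_two]
    field_simp
    ring
  · intro hs
    obtain ⟨s1, s2, -⟩ := scalar_of_not hs
    have hα : α = 0 := by simp [α, s2]
    have hβ : β = 0 := by simp [β, s1]
    apply Units.ext
    rw [hi]
    ext i j
    fin_cases i <;> fin_cases j <;> simp [Matrix.mul_apply, Fin.sum_univ_two, hα, hβ]

end Cfsg.Agent.Chev.B2Cov
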