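import Cfsg.Agent.Chev.B2Cov.Cover

/-!
Covering by the square of a semisimple class in type `B₂ = C₂` for the field with four elements.
-/

set_option autoImplicit false

universe u

namespace Cfsg.Agent.Chev.B2Cov

open Cfsg.Lie
open Cfsg.Agent.Chev.G2Odd (RootHom exists_rootHom hu_conj sl2D coe_sl2D sl2W_eq)
open Cfsg.Agent.Chev.G2Cov (gMk coe_gMk gU gL gD gW coe_gU coe_gL coe_gD coe_gW gl2_ext gl2_det_ne NonScalar scalar_of_not
  detU coe_detU slPart exists_conj_corner trace_conj det_conj eq_LDU Opt Good F4Data)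
open scoped Matrix MatrixGroups

variable {F : Type u} [Field F] [Fintype F] {w : F} (D : F4Data F w)
include D

local notation "GL₂" => GL (Fin 2) F
local notation "GG" => GL chevB2.Idx F

theorem f4_seed : Seed D.T0 := by
  have h2 := D.two
  have hsq := D.sq
  refine ⟨by simp [F4Data.coe_T0], ?_, fun e he hc => ?_⟩
  · simp [F4Data.coe_T0, Matrix.trace_fin_two]
    intro h
    exact mul_ne_zero D.w_ne D.w_ne (by grind)
  · obtain ⟨x, y, z, rfl⟩ := exists_eS he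
    have := acts D.T0 x y z
    rw [← hc, mul_inv_cancel_right] at this
    obtain ⟨k1, k2, k3⟩ := eS_inj this
    simp [F4Data.coe_T0] at k1 k2 k3
    have hz : z = 0 := by grind
    subst hz
    have hx : x = 0 := by grind
    subst hx
    have hy : y = 0 := by
      by_contra hy
      exact D.w1_ne (mul_right_cancel₀ hy (show (w + 1) * y = 0 * y by grind))
    rw [hy, eS_zero]

theorem cov_good {A : GL₂} {g : GG} (hr : Rep A g) (h : NonScalar A → A.val.trace ≠ 0) : Cov (Psi D.T0) g :=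
  (f4_seed D).cov hr (D.good A h)

theorem cov_expr {d β a b c : F} (hd : d ≠ 0) {e₁ : GG} (h1 : e₁ ∈ QN F 0) (hne : d * c + β * b ≠ 0) :
    Cov (Psi D.T0) (e₁ * Psi (gMk d 0 β d (by simpa using hd)) * eS a b c) := by
  have h2 := D.two
  obtain ⟨s, hs, hlam⟩ : ∃ s : F, s ≠ 0 ∧ 1 + c * s ≠ 0 := by
    by_cases h : 1 + c * 1 = 0
    · refine ⟨w, D.w_ne, fun e => D.w1_ne ?_⟩
      linear_combination e - w * h + w * h2
    · exact ⟨1, one_ne_zero, h⟩
  set lam := 1 + c * s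
  set γ := s / lam
  set N : GL₂ := gMk d 0 β d (by simpa using hd)
  have h43 : chevB2.neg 4 = 3 := by decide +kernel
  have e4 : cB.xu 4 c * cB.xu 3 s = cB.xu 3 γ * cB.hu 4 lam * cB.xu 4 (c / lam) := by
    have e : (sl2U c * sl2L s : Matrix.SpecialLinearGroup (Fin 2) F) = sl2L γ * sl2D lam hlam * sl2U (c / lam) := by
      apply Subtype.ext
      simp only [Matrix.SpecialLinearGroup.coe_mul]
      ext i j
      fin_cases i <;> fin_cases j <;>
        simp [Matrix.mul_apply, Fin.sum_univ_two, sl2U, sl2L, γ] <;> field_simp <;> simp only [lam] <;> ring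
    have := congrArg (phi4 (F := F)) e
    rwa [map_mul, map_mul, map_mul, h4.L, h4.L, h4.U, h4.U, h4.map_D, h43] at this
  set u : F := -γ * -b
  set w' : F := -γ * (-b) ^ 2
  have e6 : cB.xu 6 (-b) * cB.xu 3 γ = cB.xu 3 γ * (cB.xu 6 (-b) * (cB.xu 5 u * cB.xu 7 w')) := by
    have := conj_word (F := F) (L := [(5, 1, 1, 1), (7, 1, 1, 2)]) (r := 3) (s := 6) (by norm_num) (by norm_num)
      (by norm_num) (by decide +kernel) (by decide +kernel) (-γ) (-b)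
    simp only [List.map_cons, List.map_nil, List.prod_cons, List.prod_nil, mul_one, Int.cast_one, one_mul,
      pow_one, Cert.xu_inv, neg_neg] at this
    rw [← this, show cB.xu 3 (-γ) = (cB.xu 3 γ)⁻¹ by rw [Cert.xu_inv]]
    group
  have e7 : Commute (cB.xu 7 (-a)) (cB.xu 3 γ) :=
    commute_xu (by norm_num) (by norm_num) (by norm_num) (by decide +kernel) (by decide +kernel) _ _
  have hE : eS a b c = cB.xu 7 (-a) * cB.xu 6 (-b) * cB.xu 4 c := by
    rw [eS, (comm46 c (-b)).eq, mul_assoc, (comm47 c (-a)).eq, ← mul_assoc, (comm67 (-b) (-a)).eq]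
  have hq : ∀ r, r = 4 ∨ r = 6 ∨ r = 7 → ∀ t : F, cB.xu r t ∈ QP F 0 := fun r hr t =>
    Cert.xu_mem_span cB (posExcept_zero hr) t
  set Q0 := (Psi (gU u : GL₂))⁻¹ * (cB.xu 7 (-a) * cB.xu 6 (-b)) * Psi (gU u : GL₂) * cB.xu 7 w'
  have hQ0 : Q0 ∈ QP F 0 := mul_mem ((Subgroup.mem_normalizer_iff''.mp (Psi_norm_QP (gU u)) _).mp
    (mul_mem (hq 7 (Or.inr (Or.inr rfl)) _) (hq 6 (Or.inr (Or.inl rfl)) _))) (hq 7 (Or.inr (Or.inr rfl)) _)
  have hhu : cB.hu 4 lam = Psi (gD 1 lam one_ne_zero hlam : GL₂) := by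
    rw [Psi_gD, tor2, Cert.hu_one, one_mul, one_mul]
  set E2 := (Psi (gD 1 lam one_ne_zero hlam : GL₂))⁻¹ * Q0 * Psi (gD 1 lam one_ne_zero hlam : GL₂) * cB.xu 4 (c / lam)
  have hE2 : E2 ∈ QP F 0 :=
    mul_mem ((Subgroup.mem_normalizer_iff''.mp (Psi_norm_QP _) _).mp hQ0) (hq 4 (Or.inl rfl) _)
  have hx3 : ∀ t : F, cB.xu 3 t ∈ QN F 0 := fun t =>
    xu_mem_QN (by rw [show chevB2.neg 3 = 4 by decide +kernel]; exact posExcept_zero (Or.inl rfl)) (by norm_num) t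
  set E1 := cB.xu 3 (-s) * e₁ * (Psi N * cB.xu 3 γ * (Psi N)⁻¹)
  have hE1 : E1 ∈ QN F 0 :=
    mul_mem (mul_mem (hx3 _) h1) ((Subgroup.mem_normalizer_iff.mp (Psi_norm_QN N) _).mp (hx3 γ))
  have key : cB.xu 3 (-s) * (e₁ * Psi N * eS a b c) * (cB.xu 3 (-s))⁻¹ =
      E1 * Psi (N * gU u * gD 1 lam one_ne_zero hlam) * E2 := by
    rw [Cert.xu_inv, neg_neg, hE]
    calc cB.xu 3 (-s) * (e₁ * Psi N * (cB.xu 7 (-a) * cB.xu 6 (-b) * cB.xu 4 c)) * cB.xu 3 s
        = cB.xu 3 (-s) * e₁ * Psi N * (cB.xu 7 (-a) * cB.xu 6 (-b)) * (cB.xu 4 c * cB.xu 3 s) := by group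
      _ = cB.xu 3 (-s) * e₁ * Psi N * (cB.xu 7 (-a) * (cB.xu 6 (-b) * cB.xu 3 γ)) * cB.hu 4 lam *
            cB.xu 4 (c / lam) := by rw [e4]; group
      _ = cB.xu 3 (-s) * e₁ * Psi N * ((cB.xu 7 (-a) * cB.xu 3 γ) * (cB.xu 6 (-b) * (cB.xu 5 u * cB.xu 7 w'))) *
            cB.hu 4 lam * cB.xu 4 (c / lam) := by rw [e6]; group
      _ = _ := by
          rw [e7.eq, hhu]
          simp only [E1, E2, Q0, map_mul, Psi_gU]
          group
  refine Cov.of_conj (y := cB.xu 3 (-s)) (Cert.xu_mem_group cB _ _) ?_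
  rw [key]
  refine cov_good D ⟨E1, hE1, E2, hE2, rfl⟩ fun _ => ?_
  intro ht
  apply mul_ne_zero hs hne
  simp [N, Matrix.trace_fin_two, Matrix.mul_apply, Fin.sum_univ_two] at ht
  have hγ : γ * lam = s := div_mul_cancel₀ s hlam
  simp only [u, lam] at ht hγ
  grind

theorem cov_a {d β a b c : F} (hd : d ≠ 0) {e₁ : GG} (h1 : e₁ ∈ QN F 0) (ha : a ≠ 0) :
    Cov (Psi D.T0) (e₁ * Psi (gMk d 0 β d (by simpa using hd)) * eS a b c) := by
  have h2 := D.two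
  set N : GL₂ := gMk d 0 β d (by simpa using hd)
  obtain ⟨r, hr⟩ : ∃ r : F, d * (r * r * a + 2 * r * b + c) + β * (r * a + b) ≠ 0 := by
    by_contra hc
    push Not at hc
    have q0 := hc 0
    have q1 := hc 1
    have qw := hc w
    have hsq := D.sq
    exact mul_ne_zero hd ha (by grind)
  refine Cov.of_conj (y := Psi (gL r)) (Psi_mem _) ?_
  have hfix : gL r * N * (gL r)⁻¹ = N := by
    rw [mul_inv_eq_iff_eq_mul]
    apply gl2_ext <;> simp [N, Matrix.mul_apply, Fin.sum_univ_two] <;> ring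
  have key : Psi (gL r) * (e₁ * Psi N * eS a b c) * (Psi (gL r))⁻¹ =
      Psi (gL r) * e₁ * (Psi (gL r))⁻¹ * Psi N * eS a (r * a + b) (r * r * a + 2 * r * b + c) := by
    have := acts (gL r) a b c
    simp at this
    conv_rhs => rw [← this, ← hfix]
    simp only [map_mul, map_inv]
    group
  rw [key]
  exact cov_expr D hd ((Subgroup.mem_normalizer_iff.mp (Psi_norm_QN _) _).mp h1) hr

theorem exists_normal {A : GL₂} (hns : NonScalar A) (htr : A.val.trace = 0) :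
    ∃ (Y : GL₂) (d β : F) (hd : d ≠ 0), β ≠ 0 ∧ Y * A * Y⁻¹ = gMk d 0 β d (by simpa using hd) := by
  have h2 := D.two
  have hne : A.val.det ≠ 0 := by rw [Matrix.det_fin_two]; exact gl2_det_ne A
  set d := A.val.det * A.val.det
  have hd : d ≠ 0 := mul_ne_zero hne hne
  have hdd : d * d = A.val.det := by linear_combination A.val.det * D.cube hne
  obtain ⟨Y, hY⟩ := exists_conj_corner A hns d
  set B := Y * A * Y⁻¹ with hB
  have hB11 : B.val 1 1 = d := by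
    have := trace_conj Y A
    rw [htr, Matrix.trace_fin_two, hY] at this
    linear_combination this - d * h2
  have hB0 : B.val 0 1 * B.val 1 0 = 0 := by
    have := det_conj Y A
    rw [Matrix.det_fin_two, hY, hB11, ← hdd] at this
    linear_combination -this
  have hBns : B.val 0 1 ≠ 0 ∨ B.val 1 0 ≠ 0 := by
    by_contra hc
    push Not at hc
    obtain ⟨c1, c2⟩ := hc
    have hsc : A = B := by
      have := G2Cov.scalar_comm (g := B) c1 c2 (by rw [hY, hB11]) Y⁻¹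
      rw [← this, hB]; group
    rw [← hsc] at c1 c2 hY hB11
    rcases hns with h | h | h
    · exact h c1
    · exact h c2
    · exact h (by rw [hY, hB11])
  by_cases h10 : B.val 1 0 = 0
  · have h01 := hBns.resolve_right (not_not_intro h10)
    refine ⟨gW * Y, d, -(B.val 0 1), hd, neg_ne_zero.mpr h01, ?_⟩
    rw [show gW * Y * A * (gW * Y)⁻¹ = gW * B * gW⁻¹ by rw [hB]; group, mul_inv_eq_iff_eq_mul]
    apply gl2_ext <;> simp [Matrix.mul_apply, Fin.sum_univ_two, hY, hB11, h10]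
  · refine ⟨Y, d, B.val 1 0, hd, h10, ?_⟩
    have h01 := (mul_eq_zero.mp hB0).resolve_right h10
    change B = _
    apply gl2_ext <;> simp [hY, hB11, h01]

theorem cov_e2z (A : GL₂) {γ : F} (hγ : γ ≠ 0) {e₁ : GG} (h1 : e₁ ∈ QN F 0) :
    Cov (Psi D.T0) (e₁ * Psi A * eS 0 0 γ) := by
  by_cases hg : NonScalar A → A.val.trace ≠ 0
  · exact cov_good D ⟨e₁, h1, _, eS_mem _ _ _, rfl⟩ hg
  push Not at hg
  obtain ⟨Y, d, β, hd, -, hY⟩ := exists_normal D hg.1 hg.2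
  refine Cov.of_conj (y := Psi Y) (Psi_mem _) ?_
  set a' := Y.val 0 0 * Y.val 0 0 * 0 + 2 * (Y.val 0 0 * Y.val 0 1) * 0 + Y.val 0 1 * Y.val 0 1 * γ with ha'
  set b' := Y.val 0 0 * Y.val 1 0 * 0 + (Y.val 0 0 * Y.val 1 1 + Y.val 0 1 * Y.val 1 0) * 0 + Y.val 0 1 * Y.val 1 1 * γ
    with hb'
  set c' := Y.val 1 0 * Y.val 1 0 * 0 + 2 * (Y.val 1 0 * Y.val 1 1) * 0 + Y.val 1 1 * Y.val 1 1 * γ with hc'
  have key : Psi Y * (e₁ * Psi A * eS 0 0 γ) * (Psi Y)⁻¹ =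
      Psi Y * e₁ * (Psi Y)⁻¹ * Psi (gMk d 0 β d (by simpa using hd)) * eS a' b' c' := by
    rw [← acts Y 0 0 γ, ← hY, map_mul, map_mul, map_inv]; group
  rw [key]
  have m1 := (Subgroup.mem_normalizer_iff.mp (Psi_norm_QN Y) _).mp h1
  by_cases ha : a' = 0
  swap
  · exact cov_a D hd m1 ha
  refine cov_expr D hd m1 ?_
  simp [ha', hγ] at ha
  have h11 : Y.val 1 1 ≠ 0 := fun e => gl2_det_ne Y (by rw [ha, e]; ring)
  simp [hb', hc', ha, hd, hγ, h11]

theorem cov_left (A : GL₂) {e₂ : GG} (he2 : e₂ ∈ QP F 0) : Cov (Psi D.T0) (Psi A * e₂) := by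
  have h2 := D.two
  by_cases hg : NonScalar A → A.val.trace ≠ 0
  · exact cov_good D ⟨1, one_mem _, e₂, he2, (by rw [one_mul])⟩ hg
  push Not at hg
  obtain ⟨Y, d, β, hd, hβ, hY⟩ := exists_normal D hg.1 hg.2
  refine Cov.of_conj (y := Psi Y) (Psi_mem _) ?_
  obtain ⟨a, b, c, e⟩ := exists_eS ((Subgroup.mem_normalizer_iff.mp (Psi_norm_QP Y) _).mp he2)
  set N : GL₂ := gMk d 0 β d (by simpa using hd)
  rw [show Psi Y * (Psi A * e₂) * (Psi Y)⁻¹ = Psi N * eS a b c by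
    rw [← e, ← hY, map_mul, map_mul, map_inv]; group]
  by_cases ha : a = 0
  swap
  · exact one_mul (Psi N) ▸ cov_a D hd (one_mem _) ha
  by_cases hx : d * c + β * b = 0
  swap
  · exact one_mul (Psi N) ▸ cov_expr D hd (one_mem _) hx
  subst ha
  have hi : (N⁻¹ : GL₂) = gMk d⁻¹ 0 (-(β / (d * d))) d⁻¹ (by simp [hd]) := inv_eq_of_mul_eq_one_right (by
    apply gl2_ext <;> simp [N, Matrix.mul_apply, Fin.sum_univ_two, hd] <;> field_simp <;> ring)
  have step : ∀ k : F, eS k 0 0 * (Psi N * eS 0 b c) * (eS k 0 0)⁻¹ =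
      Psi N * eS (k * (d⁻¹ * d⁻¹) - k) (-(k * β) / (d * d * d) + b) (k * β * β / (d * d * d * d) + c) := by
    intro k
    have hk : (eS k 0 0)⁻¹ = eS (-k) 0 0 := inv_eq_of_mul_eq_one_right (by rw [eS_mul]; simp [eS_zero])
    have := acts N⁻¹ k 0 0
    rw [hi] at this
    rw [show eS k 0 0 * (Psi N * eS 0 b c) * (eS k 0 0)⁻¹ =
      Psi N * ((Psi N)⁻¹ * eS k 0 0 * ((Psi N)⁻¹)⁻¹ * eS 0 b c * (eS k 0 0)⁻¹) by group, ← map_inv, hi, this, hk,
      eS_mul, eS_mul]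
    congr 2 <;> simp <;> field_simp <;> ring
  by_cases hd1 : d = 1
  swap
  · refine Cov.of_conj (y := eS 1 0 0) (QP_le_group 0 (eS_mem _ _ _)) ?_
    rw [step 1]
    refine one_mul (Psi N) ▸ cov_a D hd (one_mem _) ?_
    intro h
    apply hd1
    field_simp at h
    have h' : (d - 1) * (d - 1) = 0 := by grind
    exact sub_eq_zero.mp (mul_self_eq_zero.mp h')
  refine Cov.of_conj (y := eS (b / β) 0 0) (QP_le_group 0 (eS_mem _ _ _)) ?_
  rw [step (b / β)]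
  subst hd1
  have ea : b / β * ((1 : F)⁻¹ * (1 : F)⁻¹) - b / β = 0 := by simp
  have eb : -(b / β * β) / (1 * 1 * 1 : F) + b = 0 := by field_simp; ring
  rw [ea, eb]
  set c' := b / β * β * β / (1 * 1 * 1 * 1 : F) + c
  by_cases hc' : c' = 0
  swap
  · exact one_mul (Psi N) ▸ cov_expr D hd (one_mem _) (by simpa using hc')
  rw [hc', eS_zero, mul_one, show N = gL β by apply gl2_ext <;> simp [N], Psi_gL]
  refine Cov.of_conj (y := cB.nu (chevB2.simple 1) 1) (Cert.nu_mem_group cB _ _) ?_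
  obtain ⟨k, -, ek⟩ := Cert.conj_xu_simple cB (F := F) (i := 1) (by decide +kernel) (r := 2) (by decide +kernel)
  rw [ek, show chevB2.reflectRoot 1 2 = 1 by decide +kernel]
  refine cov_good D (A := 1) ⟨cB.xu 1 (k * β), xu_mem_QN ?_ (by norm_num) _, 1, one_mem _, by simp⟩
    (fun h => by rcases h with h | h | h <;> simp at h)
  rw [show chevB2.neg 1 = 6 by decide +kernel]
  exact posExcept_zero (Or.inr (Or.inl rfl))

theorem cov_right (A : GL₂) {e₁ : GG} (h1 : e₁ ∈ QN F 0) : Cov (Psi D.T0) (e₁ * Psi A) := by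
  obtain ⟨z, hz, B, -, -, e₁', -, e₂', m2, ez, k1, -⟩ := exists_swap A h1 (one_mem (QP F 0))
  rw [mul_one, k1 rfl, one_mul] at ez
  refine (f4_seed D).cov_inv (Cov.of_conj hz ?_)
  rw [ez]
  exact cov_left D B m2

theorem cov_bad {d β : F} (hd : d ≠ 0) {e₁ e₂ : GG} (h1 : e₁ ∈ QN F 0) (he2 : e₂ ∈ QP F 0) :
    Cov (Psi D.T0) (e₁ * Psi (gMk d 0 β d (by simpa using hd)) * e₂) := by
  obtain ⟨a, b, c, rfl⟩ := exists_eS he2
  by_cases ha : a = 0
  swap
  · exact cov_a D hd h1 ha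
  by_cases hx : d * c + β * b = 0
  swap
  · exact cov_expr D hd h1 hx
  subst ha
  set N : GL₂ := gMk d 0 β d (by simpa using hd)
  obtain ⟨z, hz, e⟩ := Subgroup.mem_map.mp h1
  obtain ⟨a₁, b₁, c₁, rfl⟩ := exists_eS hz
  obtain ⟨k, hk⟩ := nInv_maps (F := F)
  obtain ⟨-, -, -, k4⟩ := hk 4 (by norm_num)
  obtain ⟨-, -, -, k6⟩ := hk 6 (by norm_num)
  obtain ⟨-, -, -, k7⟩ := hk 7 (by norm_num)
  rw [show chevB2.neg 4 = 3 by decide +kernel] at k4
  rw [show chevB2.neg 6 = 1 by decide +kernel] at k6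
  rw [show chevB2.neg 7 = 0 by decide +kernel] at k7
  have e1' : e₁ = cB.xu 3 (k 4 * c₁) * cB.xu 1 (k 6 * -b₁) * cB.xu 0 (k 7 * -a₁) := by
    rw [← e, ← k4, ← k6, ← k7, MulEquiv.coe_toMonoidHom, MulAut.conj_apply, eS]
    group
  set ν := cB.nu (chevB2.simple 1) (1 : F)
  obtain ⟨m, hm⟩ := mapsRoot_nu (F := F) (i := 1) (by norm_num)
  obtain ⟨-, -, -, m0⟩ := hm 0 (by norm_num)
  obtain ⟨-, -, -, m1⟩ := hm 1 (by norm_num)
  obtain ⟨-, -, -, m2⟩ := hm 2 (by norm_num)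
  obtain ⟨-, -, -, m3⟩ := hm 3 (by norm_num)
  obtain ⟨-, -, -, m4⟩ := hm 4 (by norm_num)
  obtain ⟨-, -, -, m6⟩ := hm 6 (by norm_num)
  rw [show chevB2.reflectRoot 1 0 = 0 by decide +kernel] at m0
  rw [show chevB2.reflectRoot 1 1 = 2 by decide +kernel] at m1
  rw [show chevB2.reflectRoot 1 2 = 1 by decide +kernel] at m2
  rw [show chevB2.reflectRoot 1 3 = 4 by decide +kernel] at m3
  rw [show chevB2.reflectRoot 1 4 = 3 by decide +kernel] at m4
  rw [show chevB2.reflectRoot 1 6 = 5 by decide +kernel] at m6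
  have hN : Psi N = cB.xu 2 (β / d) * tor2 d (d * d) := by
    rw [← Psi_gL, ← Psi_gD d d hd hd, ← map_mul]
    congr 1
    apply gl2_ext <;> simp [N, Matrix.mul_apply, Fin.sum_univ_two]
    field_simp
  have hdiag : ν * tor2 d (d * d) * ν⁻¹ ∈ chevB2.diagonalSubgroup F := by
    have := Cert.monomial_conj_diagonal' cB (inv_mem (Cert.nu_mem_monomial cB (i := 1) (by decide +kernel)))
      (tor2_mem hd (mul_ne_zero hd hd))
    rwa [inv_inv] at this
  obtain ⟨x, y, hx', hy', eh⟩ := exists_tor2 hdiag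
  set g4 := m 3 * (k 4 * c₁)
  set μ := m 1 * (k 6 * -b₁)
  set p0 := cB.xu 0 (m 0 * (k 7 * -a₁))
  set p1 := cB.xu 1 (m 2 * (β / d))
  set p3 := cB.xu 3 (m 4 * c)
  set p5 := m 6 * -b
  have hconj : ν * (e₁ * Psi N * eS 0 b c) * ν⁻¹ =
      cB.xu 4 g4 * cB.xu 2 μ * p0 * p1 * tor2 x y * p3 * cB.xu 5 p5 := by
    rw [e1', hN, eS, neg_zero, Cert.xu_zero, mul_one]
    simp only [g4, μ, p0, p1, p3, p5, ν, ← m0, ← m1, ← m2, ← m3, ← m4, ← m6, ← eh]
    group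
  refine Cov.of_conj (y := (cB.xu 4 g4)⁻¹ * ν) (mul_mem (inv_mem (Cert.xu_mem_group cB _ _))
    (Cert.nu_mem_group cB _ _)) ?_
  set X := p0 * p1 * (tor2 x y * p3 * (tor2 x y)⁻¹)
  have hX : X ∈ QN F 0 := by
    have hq : ∀ r, r = 0 ∨ r = 1 ∨ r = 3 → ∀ t : F, cB.xu r t ∈ QN F 0 := by
      intro r hr t
      refine xu_mem_QN ?_ (by rcases hr with rfl | rfl | rfl <;> norm_num) t
      rcases hr with rfl | rfl | rfl <;> unfold posExcept <;> decide +kernel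
    exact mul_mem (mul_mem (hq 0 (Or.inl rfl) _) (hq 1 (Or.inr (Or.inl rfl)) _))
      ((Subgroup.mem_normalizer_iff.mp (diag_norm_QN 0 (tor2_mem hx' hy')) _).mp (hq 3 (Or.inr (Or.inr rfl)) _))
  set E1 := Psi (gL μ) * X * (Psi (gL μ))⁻¹
  have hE1 : E1 ∈ QN F 0 := (Subgroup.mem_normalizer_iff.mp (Psi_norm_QN _) _).mp hX
  have key : (cB.xu 4 g4)⁻¹ * ν * (e₁ * Psi N * eS 0 b c) * ((cB.xu 4 g4)⁻¹ * ν)⁻¹ =
      E1 * Psi (gL μ * gD x (y / x) hx' (div_ne_zero hy' hx') * gU p5) * eS 0 0 g4 := by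
    rw [show (cB.xu 4 g4)⁻¹ * ν * (e₁ * Psi N * eS 0 b c) * ((cB.xu 4 g4)⁻¹ * ν)⁻¹ =
      (cB.xu 4 g4)⁻¹ * (ν * (e₁ * Psi N * eS 0 b c) * ν⁻¹) * cB.xu 4 g4 by group, hconj, ← xu4_eq]
    simp only [E1, X, map_mul, Psi_gL, Psi_gU, ← tor2_as_Psi hx' hy']
    group
  rw [key]
  by_cases hg4 : g4 = 0
  · rw [hg4, eS_zero, mul_one]
    exact cov_right D _ hE1
  · exact cov_e2z D _ hg4 hE1

theorem cover_four (g : GG) (hg : g ∈ chevB2.group F) : Cov (Psi D.T0) g := by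
  obtain ⟨y₀, hy₀, v, hv, h, hh, u, hu, e⟩ := exists_conj_cell hg
  obtain ⟨x, y, hx, hy, rfl⟩ := exists_tor2 hh
  obtain ⟨α, β, hr⟩ := Rep.of_cell hx hy hv hu
  rw [← e] at hr
  refine Cov.of_conj hy₀ ?_
  set A := gL α * gD x (y / x) hx (div_ne_zero hy hx) * gU β
  by_cases hg' : NonScalar A → A.val.trace ≠ 0
  · exact cov_good D hr hg'
  push Not at hg'
  obtain ⟨Y, d, β', hd, -, hY⟩ := exists_normal D hg'.1 hg'.2
  obtain ⟨e₁, h1, e₂, h2', e'⟩ := hr.conj Y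
  refine Cov.of_conj (Psi_mem Y) ?_
  rw [e', hY]
  exact cov_bad D hd h1 h2'

end Cfsg.Agent.Chev.B2Cov
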